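import Cfsg.Agent.Asch.FormExit

/-!
Exits for bilinear forms.
-/

set_option autoImplicit false
set_option linter.unusedSectionVars false
set_option maxHeartbeats 400000

namespace Cfsg.Agent.Asch

open scoped MatrixGroups Matrix Kronecker commutatorElement LinearAlgebra.Projectivization
open Form Module

variable {ι : Type} [Fintype ι] [DecidableEq ι] {F : Type*} [Field F]
variable {κ : Type} [Fintype κ] [DecidableEq κ] {μ : Type} [Fintype μ] [DecidableEq μ]
variable {P : FP F} {S : PQ P (ι → F)} {H : Subgroup (GL ι F)}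

/-! ### perfect groups on four points -/

theorem perfect_perm_four {α : Type*} [Fintype α] [DecidableEq α] (hα : Nat.card α = 4) {T : Subgroup (Equiv.Perm α)}
    (h : ⁅T, T⁆ = T) : T = ⊥ := by
  have h1 : T ≤ alternatingGroup α := h ▸ (Subgroup.commutator_mono le_top le_top).trans
    alternatingGroup.commutator_perm_le
  have h2 : T ≤ (alternatingGroup.kleinFour α).map (alternatingGroup α).subtype := by
    rw [alternatingGroup.kleinFour_eq_commutator hα, commutator_def, Subgroup.map_commutator,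
      ← MonoidHom.range_eq_map, Subgroup.range_subtype, ← h]
    exact Subgroup.commutator_mono h1 h1
  rw [eq_bot_iff, ← h, Subgroup.commutator_le]
  intro a ha b hb
  obtain ⟨a, ha', rfl⟩ := h2 ha
  obtain ⟨b, hb', rfl⟩ := h2 hb
  have := (alternatingGroup.kleinFour_isKleinFour hα).isMulCommutative.is_comm.comm ⟨a, ha'⟩ ⟨b, hb'⟩
  rw [Subgroup.mem_bot, commutatorElement_eq_one_iff_mul_comm]
  exact congrArg (fun z : alternatingGroup.kleinFour α => ((z : alternatingGroup α) : Equiv.Perm α)) this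

theorem not_perfect_two_three [Fintype F] (hq : Fintype.card F = 3) {P₁ : Subgroup (GL (Fin 2) F)}
    (h : ⁅P₁, P₁⁆ = P₁) (hf : Full (Geo.matrixSet P₁)) : False := by
  classical
  have := Fintype.ofFinite (ℙ F (Fin 2 → F))
  have h1 := perfect_perm_four (α := ℙ F (Fin 2 → F)) (by
    rw [Projectivization.card_of_finrank_two F _ (by simp), Nat.card_eq_fintype_card, hq])
    (T := P₁.map (MulAction.toPermHom _ _)) (by rw [← Subgroup.map_commutator, h])
  refine hf.irr.not_le_scalars (by simp) fun x hx => ?_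
  have h2 : ∀ (v : Fin 2 → F) (hv : v ≠ 0), ∀ y ∈ P₁, y.val *ᵥ v ∈ F ∙ v := by
    intro v hv y hy
    have : MulAction.toPermHom _ (ℙ F (Fin 2 → F)) y = 1 := by
      rw [← Subgroup.mem_bot, ← h1]; exact ⟨y, hy, rfl⟩
    have := congrArg (fun σ => σ (Projectivization.mk F v hv)) this
    simp only [MulAction.toPermHom_apply, MulAction.toPerm_apply, Projectivization.smul_mk, Equiv.Perm.coe_one, id,
      Projectivization.mk_eq_mk_iff'] at this
    obtain ⟨a, ha⟩ := this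
    exact Submodule.mem_span_singleton.2 ⟨a, ha⟩
  rcases hf.irr (F ∙ Pi.single 0 1) (fun g hg v hv => by
    obtain ⟨c, rfl⟩ := Submodule.mem_span_singleton.1 hv
    rw [Matrix.mulVec_smul]
    exact Submodule.smul_mem _ _ (h2 _ (by simp) g hg)) with h0 | h0
  · simp at h0
  · have : (Pi.single 1 1 : Fin 2 → F) ∈ F ∙ (Pi.single 0 1 : Fin 2 → F) := by rw [h0]; trivial
    obtain ⟨c, hc⟩ := Submodule.mem_span_singleton.1 this
    simpa using congrFun hc 1

/-! ### the abelian case -/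

theorem sc_mem_IsoB [Nonempty ι] (hS : S.Nondeg) {c : Fˣ} : sc ι c ∈ IsoB S ↔ (c : F) * P.σ c = 1 := by
  rw [mem_IsoB]
  simp only [B_sc]
  refine ⟨fun h => ?_, fun h u v => by rw [h, one_mul]⟩
  obtain ⟨i⟩ := ‹Nonempty ι›
  obtain ⟨y, hy⟩ := hS.exists_ne (x := Pi.single i 1) (by simp)
  exact (mul_left_eq_self₀.1 (h y _)).resolve_right hy

theorem AbCore.le_inf {M : Subgroup (GL ι F)} {r : ℕ} (h : AbCore H M r) {I : Subgroup (GL ι F)} (hI : H ≤ I) :
    M ≤ M ⊓ I ⊔ Geo.scalars ι F := fun x hx => by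
  obtain ⟨y, hy, z, hz, rfl⟩ := Subgroup.mem_sup_of_normal_right.1 (h.le hx)
  exact Subgroup.mul_mem_sup ⟨by simpa using mul_mem hx (inv_mem (h.sc_le hz)), hI hy⟩ hz

theorem AbCore.es_bilin [Finite F] [Nonempty ι] (hσ : P.σ = RingHom.id F) (hS : S.Nondeg) {I : Subgroup (GL ι F)}
    (hI : H ≤ I) (hI' : I ≤ IsoB S) (hP : Prim H) {M : Subgroup (GL ι F)} {r : ℕ} (h : AbCore H M r) :
    (2 : F) ≠ 0 ∧ ∃ m, ES H (M ⊓ I) 2 m ∧ ∀ c : Fˣ, sc ι c ∈ M ⊓ I ↔ c ^ 2 = 1 := by
  have hn : NormsG H (M ⊓ I) := h.norms.inf ((normsG_self I).mono hI)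
  have hle := h.le_inf hI
  have hR : Full (Geo.matrixSet (M ⊓ I)) := (hP _ (inf_le_left.trans h.le) hn).resolve_left fun h0 =>
    h.not_le (hle.trans (sup_le h0 le_rfl))
  have hsc : ∀ c : Fˣ, sc ι c ∈ I → c ^ 2 = 1 := fun c hc => Units.ext (by
    simpa [hσ, sq] using (sc_mem_IsoB hS).1 (hI' hc))
  obtain ⟨x, hx, hx'⟩ := SetLike.not_le_iff_exists.1 fun h0 => h.not_le (hle.trans (sup_le h0 le_rfl))
  obtain ⟨y, hy, hne⟩ := exists_not_comm hR hx'
  obtain ⟨c, hc, hc'⟩ := h.exists_c hx.1 hy.1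
  have hc1 : c ≠ 1 := by rintro rfl; exact hne (by simpa using hc')
  have hcI : sc ι c ∈ I := by
    rw [← mul_inv_eq_iff_eq_mul] at hc'
    exact hc' ▸ mul_mem (mul_mem hx.2 hy.2) (inv_mem (mul_mem hy.2 hx.2))
  obtain ⟨rfl, h2⟩ := two_ne_zero_of_root hc1 (hsc c hcI)
  obtain rfl : r = 2 := h.prime.even_iff.1 (by
    by_contra h0
    rw [(Nat.not_even_iff_odd.1 h0).neg_one_pow] at hc
    exact hc1 hc)
  obtain ⟨m, hm⟩ := h.es hP inf_le_left hle hn fun x hx => by
    obtain ⟨c, hc⟩ := mem_scalars_iff'.1 (h.pow x hx.1)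
    rw [pow_mul, hc, ← map_pow]
    change sc ι (c ^ 2) = 1
    rw [hsc c (hc ▸ pow_mem hx.2 2), map_one]
  refine ⟨h2, m, hm, fun c => ⟨fun hc => hsc c hc.2, fun hc => ⟨h.sc_le (sc_mem c), ?_⟩⟩⟩
  rcases sq_eq_one_iff_of_ne_zero' (a := (c : F)) (by simpa using congrArg Units.val hc) with h1 | h1
  · rw [show c = 1 from Units.ext h1, map_one]; exact one_mem _
  · rw [show c = -1 from Units.ext h1]; exact hcI

theorem isPrimitiveRoot_neg_one (h2 : (2 : F) ≠ 0) : IsPrimitiveRoot (-1 : F) 2 := by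
  have := Fact.mk Nat.prime_two
  have h : orderOf (-1 : F) = 2 := orderOf_eq_prime (by simp) fun h => h2 (by linear_combination -h)
  exact h ▸ IsPrimitiveRoot.orderOf _

theorem bot_ne_top_or [Fintype F] : (Fintype.card F).Prime ∨ (⊥ : Subfield F) ≠ ⊤ := by
  obtain ⟨p, hc, e, hp, he⟩ := FiniteField.card' F
  have := Fact.mk hp
  by_cases h : (⊥ : Subfield F) = ⊤
  · left
    have h1 : fixSub (frobenius F p) = ⊤ := eq_top_iff.2 (h ▸ bot_le)
    have := card_le_of_pow_eq hp.one_lt (Finset.univ : Finset F) fun x _ => (mem_fixSub _ x).1 (h1.ge trivial)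
    rw [Finset.card_univ, he] at this
    have h2 : (e : ℕ) = 1 := by
      by_contra h2
      have := e.pos
      exact absurd (Nat.pow_lt_pow_right hp.one_lt (show 1 < (e : ℕ) by omega)) (by rw [pow_one]; omega)
    rw [he, h2, pow_one]; exact hp
  · exact Or.inr h

/-- common eigenvectors of an elementary abelian `2`-group all of whose non-identity elements have trace zero -/
theorem exists_eigenvectors [Finite F] (h2 : (2 : F) ≠ 0) (hn : (Fintype.card ι : F) ≠ 0) {A : Subgroup (GL ι F)}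
    (hc : ∀ x ∈ A, ∀ y ∈ A, x * y = y * x) (hsq : ∀ x ∈ A, x * x = 1) (htr : ∀ x ∈ A, x ≠ 1 → x.val.trace = 0) :
    Nat.card (A →* Fˣ) = Nat.card A ∧ ∃ v : (A →* Fˣ) → ι → F, LinearIndependent F v ∧
      ∀ χ (a : A), a.val.val *ᵥ v χ = (χ a : F) • v χ := by
  classical
  letI : CommGroup A := { (inferInstance : Group A) with mul_comm := fun x y => Subtype.ext (hc x x.2 y y.2) }
  have : HasEnoughRootsOfUnity F 2 := ⟨⟨_, isPrimitiveRoot_neg_one h2⟩, inferInstance⟩
  have : HasEnoughRootsOfUnity F (Monoid.exponent A) := HasEnoughRootsOfUnity.of_dvd F (n := 2)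
    (Monoid.exponent_dvd_of_forall_pow_eq_one fun x => Subtype.ext (by simpa [sq] using hsq x x.2))
  refine ⟨CommGroup.card_monoidHom_of_hasEnoughRootsOfUnity A F, ?_⟩
  have := Fintype.ofFinite A
  have h1 : ∀ χ : A →* Fˣ, ∃ v : ι → F, v ≠ 0 ∧ ∀ a : A, a.val.val *ᵥ v = (χ a : F) • v := by
    intro χ
    let e : Matrix ι ι F := ∑ a : A, ((χ a)⁻¹ : Fˣ).val • a.val.val
    have he : e ≠ 0 := fun h0 => hn (by
      have := congrArg Matrix.trace h0
      rw [Matrix.trace_sum, Finset.sum_eq_single 1] at this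
      · simpa using this
      · intro a _ ha
        rw [Matrix.trace_smul, htr a a.2 fun h => ha (Subtype.ext h), smul_zero]
      · simp)
    obtain ⟨u, hu⟩ : ∃ u, e *ᵥ u ≠ 0 := by
      by_contra hcon
      push Not at hcon
      exact he (mat_ext fun v => by simp [hcon])
    refine ⟨_, hu, fun a => ?_⟩
    rw [Matrix.mulVec_mulVec, ← Matrix.smul_mulVec]
    congr 1
    simp only [e, Finset.mul_sum, Finset.smul_sum]
    rw [← Equiv.sum_comp (Equiv.mulLeft a) fun b : A => (χ a : F) • ((χ b)⁻¹ : Fˣ).val • b.val.val]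
    refine Finset.sum_congr rfl fun b _ => ?_
    simp [smul_smul, mul_left_comm (χ a : F)]
  choose v hv hv' using h1
  refine ⟨v, ?_, hv'⟩
  rw [linearIndependent_iff']
  intro s c hs χ hχ
  obtain ⟨i, hi⟩ := Function.ne_iff.1 (hv χ)
  have h3 := ((linearIndependent_monoidHom A F).comp (fun χ : A →* Fˣ => (Units.coeHom F).comp χ)
    fun a b hab => MonoidHom.ext fun x => Units.ext (DFunLike.congr_fun hab x))
  rw [linearIndependent_iff'] at h3
  refine (mul_eq_zero.1 (h3 s (fun χ => c χ * v χ i) (funext fun a => ?_) χ hχ)).resolve_right hi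
  have := congrArg (fun w => (a.val.val *ᵥ w) i) hs
  simp only [Matrix.mulVec_sum, Matrix.mulVec_smul, hv', Matrix.mulVec_zero] at this
  simpa [mul_comm, mul_left_comm, mul_assoc] using this

theorem exists_index_two {G : Type*} [Group G] [Finite G] (h2 : (2 : F) ≠ 0) (hc : ∀ x y : G, x * y = y * x)
    (hsq : ∀ x : G, x * x = 1) (z : G) : ∃ A : Subgroup G, Nat.card G ≤ 2 * Nat.card A ∧ (z ∈ A → z = 1) := by
  by_cases hz : z = 1
  · exact ⟨⊤, by simp, fun _ => hz⟩
  letI : CommGroup G := { (inferInstance : Group G) with mul_comm := hc }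
  have : HasEnoughRootsOfUnity F 2 := ⟨⟨_, isPrimitiveRoot_neg_one h2⟩, inferInstance⟩
  have : HasEnoughRootsOfUnity F (Monoid.exponent G) := HasEnoughRootsOfUnity.of_dvd F (n := 2)
    (Monoid.exponent_dvd_of_forall_pow_eq_one fun x => by simpa [sq] using hsq x)
  obtain ⟨χ, hχ⟩ := CommGroup.exists_apply_ne_one_of_hasEnoughRootsOfUnity G F hz
  refine ⟨χ.ker, ?_, fun h => absurd h hχ⟩
  rw [← Subgroup.card_mul_index χ.ker, Subgroup.index_ker, mul_comm]
  refine Nat.mul_le_mul_right _ ?_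
  have : χ.range ≤ rootsOfUnity 2 F := by
    rintro _ ⟨x, rfl⟩; rw [mem_rootsOfUnity, ← map_pow, sq, hsq, map_one]
  exact (Subgroup.card_le_of_le this).trans (card_rootsOfUnity F 2)

theorem ES.minusType [Finite F] [Nonempty ι] {S : PQ (FP.symp F) (ι → F)} (hS : S.Nondeg) (h2 : (2 : F) ≠ 0)
    {R : Subgroup (GL ι F)} {m : ℕ} (h : ES H R 2 m) (hI : R ≤ IsoB S) : Geo.IsOfMinusType m R := by
  intro A hA hsq
  have hc : ∀ x y : A, x * y = y * x := hA.is_comm.comm
  have hz : ∃ z : A, ∀ x : A, x.val.val ∈ Geo.scalars ι F → x = 1 ∨ x = z := by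
    by_cases h0 : ∃ z : A, z.val.val = sc ι (-1)
    · obtain ⟨z, hz⟩ := h0
      refine ⟨z, fun x hx => ?_⟩
      obtain ⟨c, hc⟩ := mem_scalars_iff'.1 hx
      rcases mul_self_eq_one_iff.1 ((sc_mem_IsoB hS).1 (hc ▸ hI x.val.2)) with h1 | h1
      · exact Or.inl (Subtype.ext (Subtype.ext (by rw [hc, show c = 1 from Units.ext h1, map_one]; rfl)))
      · exact Or.inr (Subtype.ext (Subtype.ext (by rw [hc, hz, show c = -1 from Units.ext h1])))
    · refine ⟨1, fun x hx => Or.inl ?_⟩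
      obtain ⟨c, hc⟩ := mem_scalars_iff'.1 hx
      rcases mul_self_eq_one_iff.1 ((sc_mem_IsoB hS).1 (hc ▸ hI x.val.2)) with h1 | h1
      · exact Subtype.ext (Subtype.ext (by rw [hc, show c = 1 from Units.ext h1, map_one]; rfl))
      · exact absurd ⟨x, by rw [hc, show c = -1 from Units.ext h1]⟩ h0
  obtain ⟨z, hz⟩ := hz
  obtain ⟨A₀, h1, h3⟩ := exists_index_two h2 hc (fun x => Subtype.ext (hsq x x.2)) z
  let φ := R.subtype.comp A.subtype
  have hφ : Function.Injective φ := R.subtype_injective.comp A.subtype_injective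
  obtain ⟨h4, v, hv, hv'⟩ := exists_eigenvectors h2 h.card_ne (A := A₀.map φ)
    (by rintro _ ⟨x, -, rfl⟩ _ ⟨y, -, rfl⟩; rw [← map_mul, hc, map_mul])
    (by rintro _ ⟨x, -, rfl⟩; rw [← map_mul, show x * x = 1 from Subtype.ext (hsq x x.2), map_one])
    (by
      rintro _ ⟨x, hx, rfl⟩ hx1
      refine h.trace _ x.val.2 fun h0 => hx1 ?_
      rcases hz x h0 with rfl | rfl
      · exact map_one φ
      · rw [h3 hx, map_one])
  have : Finite (A₀.map φ →* Fˣ) := Nat.finite_of_card_ne_zero (by rw [h4]; exact Nat.card_pos.ne')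
  have := Fintype.ofFinite (A₀.map φ →* Fˣ)
  have h5 := (S.ts_span (s := Set.range v) (fun x _ => S.symp_sing x) (by
    rintro _ ⟨χ, rfl⟩ _ ⟨ψ, rfl⟩
    by_cases hχ : χ = ψ
    · rw [hχ, S.symp_B_self]
    obtain ⟨a, ha⟩ := DFunLike.ne_iff.1 hχ
    obtain ⟨_, x, hx, rfl⟩ := a
    have h6 := mem_IsoB.1 (hI x.val.2) (v χ) (v ψ)
    erw [hv' χ ⟨_, x, hx, rfl⟩, hv' ψ ⟨_, x, hx, rfl⟩] at h6
    rw [S.B_smul_left, S.B_smul_right, ← mul_assoc] at h6
    refine (mul_left_eq_self₀.1 h6).resolve_left fun h7 => ha ?_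
    have h8 : ψ ⟨_, x, hx, rfl⟩ * ψ ⟨_, x, hx, rfl⟩ = 1 := by
      rw [← map_mul, ← map_one ψ]; congr 1
      exact Subtype.ext (by change φ x * φ x = 1; rw [← map_mul, show x * x = 1 from Subtype.ext (hsq x x.2), map_one])
    exact mul_right_cancel ((Units.ext h7).trans h8.symm))).two_mul_finrank_le hS
  rw [finrank_span_eq_card hv, ← Nat.card_eq_fintype_card, h4, Subgroup.card_map_of_injective hφ, finrank_pi,
    h.card_ι] at h5
  have := Nat.pos_of_ne_zero (pow_ne_zero m two_ne_zero)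
  rw [pow_succ]; omega

/-! ### invariant quadratic forms -/

/-- `Q` is an `H`-invariant quadratic form polarising to `B` -/
structure QFix (S : PQ P (ι → F)) (H : Subgroup (GL ι F)) (Q : (ι → F) → F) : Prop where
  smul : ∀ (c : F) v, Q (c • v) = c ^ 2 * Q v
  polar : ∀ u v, QuadraticMap.polar Q u v = S.B u v
  fix : ∀ g ∈ H, ∀ v, Q (g.val *ᵥ v) = Q v

theorem QFix.nondeg (hS : S.Nondeg) {Q : (ι → F) → F} (h : QFix S H Q) : Geo.IsNondegenerateQuadraticForm Q :=
  isNondegenerateQuadraticForm_mk Q h.smul (by simp [h.polar]) (by simp [h.polar]) fun v hv =>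
    hS.right v fun y => by rw [← h.polar, hv]

theorem QFix.le {Q : (ι → F) → F} (h : QFix S H Q) : H ≤ Geo.quadSimilarityGroup Q :=
  fun g hg => ⟨1, fun v => by simpa using h.fix g hg v⟩

theorem QFix.of_norms [Finite F] (h2 : (2 : F) = 0) (hn : 2 ≤ Fintype.card ι) (hI : H ≤ IsoB S)
    {N : Subgroup (GL ι F)} (hN : Irr N) (hHN : NormsG H N) {Q : (ι → F) → F} (h : QFix S N Q) : QFix S H Q :=
  ⟨h.smul, h.polar, fix_quad_of_norms h2 hn hN hHN h.smul (fun g hg u v => by rw [h.polar, h.polar, mem_IsoB.1 (hI hg)]) h.fix⟩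

theorem QFix.unique [Finite F] (h2 : (2 : F) = 0) (hn : 2 ≤ Fintype.card ι) (hH : Irr H) {Q Q' : (ι → F) → F}
    (h : QFix S H Q) (h' : QFix S H Q') (v : ι → F) : Q v = Q' v := by
  rw [← sub_eq_zero]
  refine semilinear_eq_zero h2 hn (D := fun v => Q v - Q' v) (fun u v => ?_) (fun c v => ?_)
    (hH _ fun x hx v hv => ?_) _
  · have := (h.polar u v).trans (h'.polar u v).symm
    simp only [QuadraticMap.polar] at this ⊢
    linear_combination this
  · simp only [h.smul, h'.smul]; ring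
  · change Q _ - Q' _ = 0
    rw [h.fix x hx, h'.fix x hx]; exact hv

theorem eps_eq_one (h2 : (2 : F) = 0) (P : FP F) : P.ε = 1 :=
  P.ε_eq.elim id fun h => by rw [h]; linear_combination -h2

theorem qFix_of_omega (hσ : P.σ = RingHom.id F) (h2 : (2 : F) = 0) (hS : S.Nondeg) (hI : H ≤ IsoB S)
    (halt : ∀ v, S.B v v = 0) {ω : Matrix ι ι F} (hω : ω + adj S ω = 1) (hn : ∀ g ∈ H, IsSc (cj g ω - ω)) :
    QFix S H fun v => S.B (ω *ᵥ v) v := by
  refine ⟨fun c v => ?_, fun u v => ?_, fun g hg v => ?_⟩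
  · simp [Matrix.mulVec_smul, hσ]; ring
  · have h1 : S.B (ω *ᵥ v) u = S.B (adj S ω *ᵥ u) v := by
      rw [B_adj hS, S.B_swap, eps_eq_one h2, hσ]; simp
    have h3 : S.B u v = S.B (ω *ᵥ u) v + S.B (adj S ω *ᵥ u) v := by
      rw [← S.B_add_left, ← Matrix.add_mulVec, hω, Matrix.one_mulVec]
    simp only [QuadraticMap.polar, Matrix.mulVec_add, S.B_add_left, S.B_add_right, h1, h3]; ring
  · obtain ⟨c, hc⟩ := hn g hg
    have : ω = cj g ω - c • 1 := by rw [← hc]; simp
    conv_lhs => rw [this]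
    rw [Matrix.sub_mulVec, cj_mulVec, S.B_sub_left, mem_IsoB.1 (hI hg)]
    simp [Matrix.smul_mulVec, halt]

theorem mem_isometryGroup' {Q : (ι → F) → F} {g : GL ι F} : g ∈ isometryGroup F Q ↔ ∀ v, Q (g.val *ᵥ v) = Q v :=
  ⟨fun h v => h v v, fun h v _ => h v⟩

/-- an invariant quadratic form from a Gram matrix -/
theorem qFix_of_gram (hσ : P.σ = RingHom.id F) {Φ : (κ → F) ≃ₗ[F] (ι → F)} {U : Matrix κ κ F}
    (hG : HasGram S Φ (U + Uᵀ)) {T : Set (GL ι F)} (hT : H ≤ Subgroup.closure T)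
    (h : ∀ g ∈ T, ∃ D : Matrix κ κ F, Dᵀ = -D ∧ (∀ i, D i i = 0) ∧ (tr Φ g.val)ᵀ * U * tr Φ g.val = U + D) :
    QFix S H fun v => ofG (RingHom.id F) U (Φ.symm v) (Φ.symm v) := by
  have hs := sesq_ofG (RingHom.id F) U
  have hadd : ∀ (A B : Matrix κ κ F) x y, ofG (RingHom.id F) (A + B) x y = ofG (RingHom.id F) A x y +
      ofG (RingHom.id F) B x y := fun A B x y => by simp [ofG_eq_sum, mul_add, add_mul, Finset.sum_add_distrib]
  refine ⟨fun c v => ?_, fun u v => ?_, fun g hg v => ?_⟩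
  · rw [map_smul, hs.smul_left, hs.smul_right]; simp; ring
  · have := hG (Φ.symm u) (Φ.symm v)
    simp only [LinearEquiv.apply_symm_apply] at this
    rw [this, hσ, hadd, ← ofG_id_swap]
    simp only [QuadraticMap.polar, map_add, hs.add_left, hs.add_right]; ring
  · refine mem_isometryGroup'.1 ((Subgroup.closure_le (isometryGroup F fun v =>
      ofG (RingHom.id F) U (Φ.symm v) (Φ.symm v))).2 (fun g hg => mem_isometryGroup'.2 fun v => ?_) (hT hg)) v
    obtain ⟨D, h1, h2, h3⟩ := h g hg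
    have : Φ.symm (g.val *ᵥ v) = tr Φ g.val *ᵥ Φ.symm v := by rw [tr_mulVec']; simp
    simp only [this, ofG_mulVec]
    erw [Matrix.map_id, h3]
    rw [hadd, ofG_self_eq_zero h1 h2, add_zero]

/-- the strictly upper triangular part -/
def upper {k : ℕ} (G : Matrix (Fin k) (Fin k) F) : Matrix (Fin k) (Fin k) F := fun i j => if i < j then G i j else 0

theorem upper_add {k : ℕ} {G : Matrix (Fin k) (Fin k) F} (h : Gᵀ = G) (hd : ∀ i, G i i = 0) :
    upper G + (upper G)ᵀ = G := by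
  ext i j
  have : G j i = G i j := congrFun (congrFun h i) j
  rcases lt_trichotomy i j with h1 | rfl | h1
  · simp [upper, h1, h1.not_gt]
  · simp [upper, hd]
  · simp [upper, h1, h1.not_gt, this]

theorem herm_symm (hσ : P.σ = RingHom.id F) (h2 : (2 : F) = 0) [Nonempty κ] {G : Matrix κ κ F} (hd : G.det ≠ 0) {ε : F}
    (h : (G.map P.σ)ᵀ = ε • G) : Gᵀ = G := by
  have h1 := herm_scalar P.σσ (ne_zero_of_det hd) h
  rw [hσ] at h h1
  have : ε = 1 := (mul_self_eq_one_iff.1 h1).elim id fun h => by rw [h]; linear_combination -h2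
  simpa [this] using h

theorem TCore.alt [Finite F] (hσ : P.σ = RingHom.id F) (h2 : (2 : F) = 0) (hH : Irr H) (hκ : 2 ≤ Fintype.card κ)
    [Nonempty μ] {Φ : (κ × μ → F) ≃ₗ[F] (ι → F)} {G₁ : Matrix κ κ F} {G₂ : Matrix μ μ F} {ε₁ ε₂ : F}
    (h : TCore S H Φ G₁ G₂ ε₁ ε₂) : G₁ᵀ = G₁ ∧ ∀ i, G₁ i i = 0 := by
  have : Nonempty κ := Fintype.card_pos_iff.1 (by omega)
  have h1 := herm_symm hσ h2 h.det₁ h.herm₁
  exact ⟨h1, SimIrr.diag h2 hκ h1 (hσ ▸ h.simIrr hH)⟩

theorem TCore.qFix [Finite F] (hσ : P.σ = RingHom.id F) (h2 : (2 : F) = 0) (hH : Irr H) {k l : ℕ} (hk : 2 ≤ k)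
    (hl : 2 ≤ l) {Φ : (Fin k × Fin l → F) ≃ₗ[F] (ι → F)} {G₁ : Matrix (Fin k) (Fin k) F}
    {G₂ : Matrix (Fin l) (Fin l) F} {ε₁ ε₂ : F} (h : TCore S H Φ G₁ G₂ ε₁ ε₂) :
    QFix S H fun v => ofG (RingHom.id F) (upper G₁ ⊗ₖ G₂) (Φ.symm v) (Φ.symm v) := by
  have : Nonempty (Fin k) := ⟨⟨0, by omega⟩⟩
  have : Nonempty (Fin l) := ⟨⟨0, by omega⟩⟩
  obtain ⟨h3, h4⟩ := h.alt hσ h2 hH (by simpa using hk)
  obtain ⟨h5, h6⟩ := h.swap.alt hσ h2 hH (by simpa using hl)
  refine qFix_of_gram hσ ?_ (T := H) Subgroup.subset_closure fun g hg => ?_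
  · rw [kron_transpose, h5, ← Matrix.add_kronecker, upper_add h3 h4]; exact h.gram
  · obtain ⟨a, b, c, hc, h7, h8, h9⟩ := h.kron g hg
    simp only [hσ, RingHom.coe_id, Matrix.map_id] at h8 h9
    refine ⟨(c⁻¹ • (a.valᵀ * upper G₁ * a.val) - upper G₁) ⊗ₖ G₂, ?_, fun i => by simp [h6], ?_⟩
    · have : (c⁻¹ • (a.valᵀ * upper G₁ * a.val) - upper G₁)ᵀ =
          (-1 : F) • (c⁻¹ • (a.valᵀ * upper G₁ * a.val) - upper G₁) := by
        have h10 : c⁻¹ • (a.valᵀ * (upper G₁ + (upper G₁)ᵀ) * a.val) = upper G₁ + (upper G₁)ᵀ := by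
          rw [upper_add h3 h4, h8, smul_smul, inv_mul_cancel₀ hc, one_smul]
        rw [mul_add, add_mul, smul_add] at h10
        simp only [Matrix.transpose_sub, Matrix.transpose_smul, Matrix.transpose_mul, Matrix.transpose_transpose,
          ← mul_assoc, neg_smul, one_smul, neg_sub]
        rw [sub_eq_sub_iff_add_eq_add, add_comm, h10]
      rw [kron_transpose, this, h5, Matrix.smul_kronecker]; simp
    · rw [h7, kron_transpose, ← Matrix.mul_kronecker_mul, ← Matrix.mul_kronecker_mul, h9, ← Matrix.add_kronecker,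
        Matrix.kronecker_smul, ← Matrix.smul_kronecker]
      simp

theorem pt_update_add {τ : Type} [Fintype τ] [DecidableEq τ] (f : τ → Matrix κ κ F) (i : τ) (X Y : Matrix κ κ F) :
    pt (Function.update f i (X + Y)) = pt (Function.update f i X) + pt (Function.update f i Y) := by
  ext x y; simp [pt_update, add_mul]

theorem pt_update_transpose {τ : Type} [Fintype τ] [DecidableEq τ] {G : Matrix κ κ F} (h : Gᵀ = G) (i : τ)
    (X : Matrix κ κ F) : (pt (Function.update (fun _ => G) i X))ᵀ = pt (Function.update (fun _ => G) i Xᵀ) := by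
  rw [pt_transpose]; congr 1; funext j
  by_cases hj : j = i
  · subst hj; simp
  · simp [hj, h]

theorem PCore.alt [Finite F] (hσ : P.σ = RingHom.id F) (h2 : (2 : F) = 0) {k t : ℕ}
    {Φ : ((Fin t → Fin k) → F) ≃ₗ[F] (ι → F)} {G₁ : Matrix (Fin k) (Fin k) F} {c ε₁ : F}
    (h : PCore S H Φ G₁ c ε₁) : G₁ᵀ = G₁ ∧ ∀ i, G₁ i i = 0 := by
  have := h.two_le_k
  have : Nonempty (Fin k) := ⟨⟨0, by omega⟩⟩
  have h1 := herm_symm hσ h2 h.det h.herm
  exact ⟨h1, SimIrr.diag h2 (by simpa using h.two_le_k) h1 (hσ ▸ h.irr)⟩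

theorem WCore.qFix [Finite F] (hσ : P.σ = RingHom.id F) (h2 : (2 : F) = 0) (hI : H ≤ IsoB S)
    (hn : 2 ≤ Fintype.card ι) {k t : ℕ}
    {Φ : ((Fin t → Fin k) → F) ≃ₗ[F] (ι → F)} {P₁ : Subgroup (GL (Fin k) F)} (hW : WCore H Φ P₁)
    {G₁ : Matrix (Fin k) (Fin k) F} {c ε₁ : F} (h : PCore S H Φ G₁ c ε₁)
    (hfix : ∀ y ∈ P₁, y.valᵀ * G₁ * y.val.map P.σ = G₁) (i₀ : Fin t) :
    QFix S H fun v => ofG (RingHom.id F) (c • pt (Function.update (fun _ => G₁) i₀ (upper G₁))) (Φ.symm v) (Φ.symm v) := by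
  obtain ⟨h3, h4⟩ := h.alt hσ h2
  simp only [hσ, RingHom.coe_id, Matrix.map_id] at hfix
  have hG : HasGram S Φ (c • pt (Function.update (fun _ => G₁) i₀ (upper G₁)) +
      (c • pt (Function.update (fun _ => G₁) i₀ (upper G₁)))ᵀ) := by
    rw [Matrix.transpose_smul, pt_update_transpose h3, ← smul_add, ← pt_update_add, upper_add h3 h4,
      Function.update_eq_self_iff.2 rfl]
    exact h.gram
  refine QFix.of_norms h2 hn hI hW.prodQ_full.irr hW.prodQ_norms (qFix_of_gram hσ hG le_rfl ?_)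
  rintro _ ⟨i, y, hy, rfl⟩
  rw [coe_trG_symm, AlgEquiv.apply_symm_apply, coe_embG, emb_transpose, Matrix.mul_smul, Matrix.smul_mul,
    emb_mul_pt, pt_mul_emb, Function.update_idem, Function.update_self]
  by_cases hi : i = i₀
  · subst hi
    refine ⟨c • pt (Function.update (fun _ => G₁) i (y.valᵀ * upper G₁ * y.val - upper G₁)), ?_, fun x => ?_, ?_⟩
    · have h10 : y.valᵀ * (upper G₁ + (upper G₁)ᵀ) * y.val = upper G₁ + (upper G₁)ᵀ := by
        rw [upper_add h3 h4, hfix y hy]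
      rw [Matrix.transpose_smul, pt_update_transpose h3, eq_neg_iff_add_eq_zero, ← smul_add, ← pt_update_add]
      have : (y.valᵀ * upper G₁ * y.val - upper G₁)ᵀ + (y.valᵀ * upper G₁ * y.val - upper G₁) = 0 := by
        rw [mul_add, add_mul] at h10
        simp only [Matrix.transpose_sub, Matrix.transpose_mul, Matrix.transpose_transpose, ← mul_assoc]
        rw [sub_add_sub_comm, add_comm, h10, add_comm, sub_self]
      rw [this]
      ext x y; simp [pt_update]
    · have : Nontrivial (Fin t) := Fin.nontrivial_iff_two_le.2 h.two_le_t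
      obtain ⟨j, hj⟩ := exists_ne i
      rw [Matrix.smul_apply, pt_update, Finset.prod_eq_zero (Finset.mem_erase.2 ⟨hj, Finset.mem_univ _⟩) (h4 _)]
      simp
    · rw [← smul_add, ← pt_update_add]; simp
  · refine ⟨0, by simp, by simp, ?_⟩
    rw [Function.update_of_ne hi, hfix y hy, add_zero, Function.update_eq_self_iff.2]
    rw [Function.update_of_ne hi]

end Cfsg.Agent.Asch
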