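import Cfsg.Agent.Asch.FormExit

/-!
The normal subgroup `3^{1+2}` of the unitary group in dimension three over the field with four elements.
-/

set_option autoImplicit false
set_option linter.unusedSectionVars false
set_option maxHeartbeats 400000

namespace Cfsg.Agent.Asch

open scoped MatrixGroups Matrix Kronecker commutatorElement
open Form Module

/-- a model of the field with four elements -/
inductive F4 | z | o | w | v
  deriving DecidableEq

namespace F4

instance : Fintype F4 := ⟨{z, o, w, v}, fun x => by cases x <;> simp⟩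

instance : Zero F4 := ⟨z⟩
instance : One F4 := ⟨o⟩
instance : Neg F4 := ⟨id⟩
/-- addition -/
def add : F4 → F4 → F4
  | z, x => x | x, z => x | o, o => z | w, w => z | v, v => z
  | o, w => v | w, o => v | o, v => w | v, o => w | w, v => o | v, w => o
/-- multiplication -/
def mul : F4 → F4 → F4
  | z, _ => z | _, z => z | o, x => x | x, o => x | w, w => v | w, v => o | v, w => o | v, v => w
instance : Add F4 := ⟨add⟩
instance : Mul F4 := ⟨mul⟩

instance : CommRing F4 := CommRing.ofMinimalAxioms (by decide) (by decide) (by decide) (by decide) (by decide)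
  (by decide) (by decide)

/-- the elements of `3^{1+2}` -/
def E (i j k : Fin 3) : Matrix (Fin 3) (Fin 3) F4 := fun a b => if a = b + i then w ^ (k + j * b).val else 0

theorem key : ∀ a b c : F4, a * (a * a) + b * (b * b) + c * (c * c) = 1 →
    ∀ d e f : F4, d * (d * d) + e * (e * e) + f * (f * f) = 1 ∧ a * (d * d) + b * (e * e) + c * (f * f) = 0 →
    ∀ g h i : F4, g * (g * g) + h * (h * h) + i * (i * i) = 1 ∧ a * (g * g) + b * (h * h) + c * (i * i) = 0 ∧
      d * (g * g) + e * (h * h) + f * (i * i) = 0 →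
    a * e * i + a * h * f + d * b * i + d * h * c + g * b * f + g * e * c = 1 →
    !![a, d, g; b, e, h; c, f, i] * !![a, d, g; b, e, h; c, f, i] * !![a, d, g; b, e, h; c, f, i] = 1 →
    ∃ x y u, !![a, d, g; b, e, h; c, f, i] = E x y u := by decide +kernel

theorem E_comm : ∀ i j k i' j' k', ∃ c : F4, E i j k * E i' j' k' = c • (E i' j' k' * E i j k) := by decide +kernel

theorem E_prop : ∀ i j, (E i j 0)ᵀ * (E i j 0).map (fun x => x * x) = 1 ∧ (E i j 0).det = 1 ∧
    E i j 0 * E i j 0 * E i j 0 = 1 := by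
  simp only [Matrix.det_fin_three]
  decide +kernel

theorem E_span : ∀ a b : Fin 3, ∃ i, ∃ c d e : F4, Matrix.single a b 1 = c • E i 0 0 + d • E i 1 0 + e • E i 2 0 := by
  decide +kernel

theorem exists_E {M : Matrix (Fin 3) (Fin 3) F4} (h1 : Mᵀ * M.map (fun x => x * x) = 1) (h2 : M.det = 1)
    (h3 : M * M * M = 1) : ∃ x y u, M = E x y u := by
  have h := fun i j => congrFun (congrFun h1 i) j
  simp only [Matrix.mul_apply, Fin.sum_univ_three, Matrix.transpose_apply, Matrix.map_apply] at h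
  rw [Matrix.det_fin_three] at h2
  rw [Matrix.eta_fin_three M] at h3 ⊢
  exact key _ _ _ (h 0 0) _ _ _ ⟨h 1 1, h 0 1⟩ _ _ _ ⟨h 2 2, h 0 2, h 1 2⟩ (by
    rw [← h2]; simp only [sub_eq_add_neg]; rfl) h3

variable {F : Type*} [Field F]

/-- the embedding into a field, as a function -/
def toF (ω : F) : F4 → F | z => 0 | o => 1 | w => ω | v => ω + 1

/-- the embedding into a field -/
def hom (h2 : (2 : F) = 0) {ω : F} (hω : ω * ω = ω + 1) : F4 →+* F where
  toFun := toF ω
  map_one' := rfl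
  map_zero' := rfl
  map_add' a b := by
    change toF ω (add a b) = _
    cases a <;> cases b <;> simp only [add, toF] <;> grind
  map_mul' a b := by
    change toF ω (mul a b) = _
    cases a <;> cases b <;> simp only [mul, toF] <;> grind

theorem exists_equiv [Fintype F] (hq : Fintype.card F = 4) : Nonempty (F4 ≃+* F) := by
  have h2 : (2 : F) = 0 := by
    have := FiniteField.cast_card_eq_zero F
    rw [hq] at this
    exact pow_eq_zero_iff (two_ne_zero) |>.1 (show (2 : F) ^ 2 = 0 by rw [← this]; norm_num)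
  obtain ⟨ω, hω⟩ := exists_pow_q_ne (q := 2) (F := F) hq
  have h4 : ω ^ 4 = ω := by rw [← hq, FiniteField.pow_card]
  have h3 : ω * ω = ω + 1 := by
    have : (ω ^ 2 - ω) * (ω * ω - (ω + 1)) = 0 := by grind
    exact sub_eq_zero.1 ((mul_eq_zero.1 this).resolve_left (sub_ne_zero.2 hω))
  refine ⟨RingEquiv.ofBijective (hom h2 h3) ((Fintype.bijective_iff_injective_and_card _).2 ⟨?_, by rw [hq]; rfl⟩)⟩
  rw [injective_iff_map_eq_zero]
  intro a ha
  change toF ω a = 0 at ha
  cases a <;> simp only [toF] at ha <;> first | rfl | grind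

end F4

variable {F : Type*} [Field F] [Fintype F] {σ : F →+* F}

/-- the elements of order dividing three in `SU₃(2)` -/
def T27 (σ : F →+* F) (G : Matrix (Fin 3) (Fin 3) F) : Set (GL (Fin 3) F) :=
  {x | x.valᵀ * G * x.val.map σ = G ∧ x.val.det = 1 ∧ x ^ 3 = 1}

theorem T27_one (hq : Fintype.card F = 4) (hσ : ∀ x, σ x = x ^ 2) :
    (∀ x ∈ T27 σ 1, ∀ y ∈ T27 σ 1, ⁅x, y⁆ ∈ Geo.scalars (Fin 3) F) ∧ Full (Units.val '' T27 σ 1) := by
  obtain ⟨φ⟩ := F4.exists_equiv hq
  let ψ := φ.mapMatrix (m := Fin 3)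
  have hψ : ∀ M : Matrix (Fin 3) (Fin 3) F4, (ψ M)ᵀ * 1 * (ψ M).map σ = ψ (Mᵀ * M.map fun x => x * x) := fun M => by
    rw [mul_one, map_mul]; congr 1; ext i j; simp [ψ, hσ, sq]
  have hdet : ∀ M : Matrix (Fin 3) (Fin 3) F4, (ψ M).det = φ M.det := fun M => (φ.map_det M).symm
  have hsm : ∀ (c : F4) (M : Matrix (Fin 3) (Fin 3) F4), ψ (c • M) = φ c • ψ M := fun c M => by ext; simp [ψ]
  constructor
  · have h1 : ∀ x ∈ T27 σ 1, ∃ i j k, x.val = ψ (F4.E i j k) := by
      rintro x ⟨h1, h2, h3⟩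
      obtain ⟨M, hM⟩ := ψ.surjective x.val
      rw [← hM] at h1 h2 ⊢
      obtain ⟨i, j, k, h⟩ := F4.exists_E (M := M) (ψ.injective (by rw [← hψ, h1, map_one]))
        (φ.injective (by rw [← hdet, h2, map_one])) (ψ.injective (by
          rw [map_mul, map_mul, hM, map_one, ← pow_three']; exact congrArg Units.val h3))
      exact ⟨i, j, k, by rw [h]⟩
    intro x hx y hy
    obtain ⟨i, j, k, hx⟩ := h1 x hx
    obtain ⟨i', j', k', hy⟩ := h1 y hy
    obtain ⟨c, hc⟩ := F4.E_comm i j k i' j' k'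
    refine (mem_scalars_iff _).2 ⟨φ c, ?_⟩
    have := congrArg ψ hc
    rw [hsm, map_mul, map_mul, ← hx, ← hy] at this
    simp only [commutatorElement_def, Units.val_mul, this, Matrix.smul_mul]
    simp [mul_assoc]
  · have h1 : ∀ i j, ψ (F4.E i j 0) ∈ Submodule.span F (Units.val '' T27 σ 1) := fun i j => by
      obtain ⟨h1, h2, h3⟩ := F4.E_prop i j
      have h4 : (ψ (F4.E i j 0)).det = 1 := by rw [hdet, h2, map_one]
      refine Submodule.subset_span ⟨Matrix.GeneralLinearGroup.mkOfDetNeZero _ (h4 ▸ one_ne_zero), ⟨?_, h4, ?_⟩, rfl⟩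
      · exact (hψ _).trans (by rw [h1, map_one])
      · apply Units.ext
        change ψ _ ^ 3 = 1
        rw [pow_three', ← map_mul, ← map_mul, h3, map_one]
    refine full_of_single fun a b => ?_
    obtain ⟨i, c, d, e, h⟩ := F4.E_span a b
    have := congrArg ψ h
    rw [map_add, map_add, hsm, hsm, hsm, show ψ (Matrix.single a b 1) = Matrix.single a b 1 by simp [ψ]] at this
    rw [this]
    exact add_mem (add_mem (Submodule.smul_mem _ _ (h1 _ _)) (Submodule.smul_mem _ _ (h1 _ _)))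
      (Submodule.smul_mem _ _ (h1 _ _))

theorem T27_conj {G G' : Matrix (Fin 3) (Fin 3) F} {a : GL (Fin 3) F} {m : F} (hm : m ≠ 0)
    (h : a.valᵀ * G' * a.val.map σ = m • G) {x : GL (Fin 3) F} (hx : x ∈ T27 σ G) : a * x * a⁻¹ ∈ T27 σ G' := by
  obtain ⟨h1, h2, h3⟩ := hx
  refine ⟨?_, by simp [h2, a.det_ne_zero], by rw [conj_pow, h3]; simp⟩
  have h4 : G' = m • ((a⁻¹).valᵀ * G * (a⁻¹).val.map σ) := by
    rw [← Matrix.smul_mul, ← Matrix.mul_smul, ← h, mul_assoc, mul_assoc, ← Matrix.map_mul, ← mul_assoc, ← mul_assoc,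
      ← Matrix.transpose_mul]
    simp
  conv_rhs => rw [h4, ← h1]
  simp only [Units.val_mul, Matrix.transpose_mul, Matrix.map_mul, mul_assoc] at h ⊢
  rw [← mul_assoc G', ← mul_assoc a.valᵀ, h]
  simp [mul_assoc]

theorem T27_prop (hq : Fintype.card F = 4) (hσ : ∀ x, σ x = x ^ 2) {G : Matrix (Fin 3) (Fin 3) F} {a : GL (Fin 3) F}
    {m : F} (hm : m ≠ 0) (h : a.valᵀ * G * a.val.map σ = m • 1) :
    (∀ x ∈ T27 σ G, ∀ y ∈ T27 σ G, ⁅x, y⁆ ∈ Geo.scalars (Fin 3) F) ∧ Full (Units.val '' T27 σ G) := by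
  obtain ⟨h1, h2⟩ := T27_one hq hσ
  have h' : (a⁻¹).valᵀ * 1 * (a⁻¹).val.map σ = m⁻¹ • G := by
    rw [eq_inv_smul_iff₀ hm, ← Matrix.smul_mul, ← Matrix.mul_smul, ← h, mul_assoc, mul_assoc, ← Matrix.map_mul,
      ← mul_assoc, ← mul_assoc, ← Matrix.transpose_mul]
    simp
  constructor
  · intro x hx y hy
    have := (Geo.scalars_normal).conj_mem _
      (h1 _ (T27_conj (inv_ne_zero hm) h' hx) _ (T27_conj (inv_ne_zero hm) h' hy)) a
    convert this using 1
    simp only [commutatorElement_def]; group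
  · refine (h2.map (cj a)).mono ?_
    rintro _ ⟨_, ⟨x, hx, rfl⟩, rfl⟩
    exact ⟨_, T27_conj hm h hx, (cj_coe a x).symm⟩

end Cfsg.Agent.Asch
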