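import Cfsg.Agent.Asch.Adj

/-!
Exits common to the three geometries with a form.
-/

set_option autoImplicit false
set_option linter.unusedSectionVars false
set_option maxHeartbeats 400000

namespace Cfsg.Agent.Asch

open scoped MatrixGroups Matrix Kronecker commutatorElement
open Form Module

variable {ι : Type} [Fintype ι] [DecidableEq ι] {F : Type*} [Field F]
variable {κ : Type} [Fintype κ] [DecidableEq κ] {μ : Type} [Fintype μ] [DecidableEq μ]
variable {P : FP F} {S : PQ P (ι → F)} {H : Subgroup (GL ι F)}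

/-! ### no commutative invariant algebra -/

/-- `H` normalises no non-scalar commutative adjoint-closed algebra. -/
def NoComm (S : PQ P (ι → F)) (H : Subgroup (GL ι F)) : Prop :=
  ∀ C : Subalgebra F (Matrix ι ι F), Norms H C → (∀ x ∈ C, ∀ y ∈ C, x * y = y * x) →
    AdjC S (C : Set (Matrix ι ι F)) → ∀ z ∈ C, IsSc z

theorem NoComm.mono (h : NoComm S H) {H' : Subgroup (GL ι F)} (hle : H ≤ H') : NoComm S H' :=
  fun C hC => h C fun g hg => hC g (hle hg)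

theorem NoComm.of_set (h : NoComm S H) (hS : S.Nondeg) {T : Set (Matrix ι ι F)}
    (hn : ∀ g ∈ H, ∀ x ∈ T, cj g x ∈ Algebra.adjoin F T) (hc : ∀ x ∈ T, ∀ y ∈ T, x * y = y * x)
    (ha : ∀ x ∈ T, adj S x ∈ Algebra.adjoin F T) : ∀ x ∈ T, IsSc x := by
  refine fun x hx => h (Algebra.adjoin F T) (fun g hg y hy => ?_) (fun x hx y hy => ?_) (fun y hy => ?_) x
    (Algebra.subset_adjoin hx)
  · have : Algebra.adjoin F T ≤ (Algebra.adjoin F T).comap (cj g).toAlgHom := Algebra.adjoin_le (hn g hg)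
    exact this hy
  · exact Algebra.commute_of_mem_adjoin_of_forall_mem_commute hy fun b hb =>
      (Algebra.commute_of_mem_adjoin_of_forall_mem_commute hx fun a ha => hc b hb a ha).symm
  · change adj S y ∈ Algebra.adjoin F T
    induction hy using Algebra.adjoin_induction with
    | mem x hx => exact ha x hx
    | algebraMap c =>
      rw [Algebra.algebraMap_eq_smul_one, adj_smul hS, adj_one hS]; exact Subalgebra.smul_mem _ (one_mem _) _
    | add x y _ _ hx hy => rw [adj_add hS]; exact add_mem hx hy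
    | mul x y _ _ hx hy => rw [adj_mul hS]; exact mul_mem hy hx

theorem NoComm.isSc_of_eigen (h : NoComm S H) (hS : S.Nondeg) {X : Matrix ι ι F}
    (hn : ∀ g ∈ H, ∃ c : F, cj g X = c • X) (ha : ∃ c : F, adj S X = c • X) : IsSc X := by
  have hX : ∀ c : F, c • X ∈ Algebra.adjoin F {X} := fun c =>
    Subalgebra.smul_mem _ (Algebra.self_mem_adjoin_singleton F X) c
  refine h.of_set hS (T := {X}) ?_ ?_ ?_ X rfl
  · rintro g hg _ rfl; obtain ⟨c, hc⟩ := hn g hg; exact hc ▸ hX c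
  · rintro _ rfl _ rfl; rfl
  · rintro _ rfl; obtain ⟨c, hc⟩ := ha; exact hc ▸ hX c

theorem NoComm.le_scalars (h : NoComm S H) (hS : S.Nondeg) {A : Subgroup (GL ι F)}
    (hA : A ≤ Geo.similarityGroup S.B) (hn : NormsG H A) (hc : ∀ x ∈ A, ∀ y ∈ A, x * y = y * x) :
    A ≤ Geo.scalars ι F := fun x hx =>
  (mem_scalars_iff x).2 (h _ hn.alg (fun _ hX _ hY => alg_comm (fun y hy => (alg_comm (fun x hx =>
    congrArg Units.val (hc y hy x hx)) hX).symm) hY) (adjC_alg hS hA) _ (mem_alg hx))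

/-! ### subfields -/

/-- the subfield case, with the form -/
structure SubCore [Fintype F] (S : PQ P (ι → F)) (H : Subgroup (GL ι F)) (F₁ : Subfield F) (r : ℕ) (P' : GL ι F)
    (G : Matrix ι ι F) (ζ : F) : Prop where
  prime : r.Prime
  card : Fintype.card F = Nat.card F₁ ^ r
  le : H ≤ Geo.subfieldSubgroup F₁ P'
  gram : HasGram S (glEquiv P') G
  ne : ζ ≠ 0
  ovr : Over F₁ (ζ • G)

theorem Over.smul {F₀ : Subfield F} {X : Matrix ι κ F} (hX : Over F₀ X) {c : F} (hc : c ∈ F₀) : Over F₀ (c • X) :=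
  fun i j => mul_mem hc (hX i j)

theorem Over.map [Finite F] {F₀ : Subfield F} {X : Matrix ι κ F} (hX : Over F₀ X) (σ : F →+* F) :
    Over F₀ (X.map σ) := fun i j => map_mem_subfield F₀ σ (hX i j)

theorem exists_subCore [Fintype F] [Nonempty ι] (hS : S.Nondeg) {T : Set (Matrix ι ι F)} (h1 : 1 ∈ T)
    (hmul : ∀ x ∈ T, ∀ y ∈ T, x * y ∈ T) (hT : Full T) (hn : Norms H T) (ha : AdjC S T) {F₀ : Subfield F}
    (hF : F₀ ≠ ⊤) (htr : ∀ s ∈ T, s.trace ∈ F₀) : ∃ F₁ r P' G ζ, F₀ ≤ F₁ ∧ SubCore S H F₁ r P' G ζ := by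
  obtain ⟨F₁, r, P', hle, hr, hc, hH, hP⟩ := subfield_exit h1 hmul hT hn hF htr
  obtain ⟨G, hG⟩ := exists_hasGram S (glEquiv P')
  have hd := hG.det hS
  let g : GL ι F := Matrix.GeneralLinearGroup.mkOfDetNeZero G hd
  have hsp : ∀ X ∈ Submodule.span F₁ T, adj S X ∈ Submodule.span F₁ T := by
    intro X hX
    induction hX using Submodule.span_induction with
    | mem x hx => exact Submodule.subset_span (ha x hx)
    | zero => rw [adj_zero hS]; exact zero_mem _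
    | add x y _ _ hx hy => rw [adj_add hS]; exact add_mem hx hy
    | smul c x _ hx =>
      rw [show c • x = (c : F) • x from rfl, adj_smul hS]
      exact Submodule.smul_mem _ (⟨_, map_mem_subfield F₁ P.σ c.2⟩ : F₁) hx
  obtain ⟨c, hc'⟩ := exists_over_of_norm (F₀ := F₁) g⁻¹ fun X hX => by
    have h2 := (hP _).1 (hsp _ ((hP (cj P' Xᵀ)).2 (by simpa using hX.transpose)))
    rw [← tr_glEquiv, hG.tr_adj hS, tr_glEquiv, cj_inv_cj, adjG, Matrix.transpose_transpose] at h2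
    have h3 := h2.map P.σ
    rw [map_map_invol P.σσ] at h3
    rwa [cj_apply, inv_inv, Matrix.GeneralLinearGroup.coe_inv]
  have h4 := Over.inv (F₀ := F₁) (g := sc ι c * g⁻¹) (by simpa using hc')
  refine ⟨F₁, r, P', G, (c⁻¹ : Fˣ), hle, hr, hc, hH, hG, (c⁻¹).ne_zero, ?_⟩
  rwa [mul_inv_rev, inv_inv, ← map_inv, Units.val_mul, coe_sc, Matrix.mul_smul, mul_one] at h4

section subcore
variable [Fintype F] {F₁ : Subfield F} {r : ℕ} {P' : GL ι F} {G : Matrix ι ι F} {ζ : F}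

theorem subfieldSubgroup_mul_sc (F₁ : Subfield F) (P' : GL ι F) (l : Fˣ) :
    Geo.subfieldSubgroup F₁ (P' * sc ι l) = Geo.subfieldSubgroup F₁ P' := by
  ext g
  simp only [mem_subfieldSubgroup_iff, mul_inv_rev, cj_mul, ← map_inv, cj_sc]

theorem SubCore.scale (h : SubCore S H F₁ r P' G ζ) {l ζ' : F} (hl : l ≠ 0) (hζ' : ζ' ≠ 0)
    (h' : ζ' * (l * P.σ l) / ζ ∈ F₁) : SubCore S H F₁ r (P' * sc ι (Units.mk0 l hl)) ((l * P.σ l) • G) ζ' where
  prime := h.prime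
  card := h.card
  le := by rw [subfieldSubgroup_mul_sc]; exact h.le
  gram x y := by
    have := h.gram x y
    simp only [glEquiv_apply] at this
    simp [Matrix.smul_mulVec, ofG_smul, this]; ring
  ne := hζ'
  ovr := by
    have := h.ovr.smul h'
    rwa [smul_smul, div_mul_cancel₀ _ h.ne, mul_smul] at this

theorem SubCore.change (h : SubCore S H F₁ r P' G ζ) {ζ' : F} (hζ' : ζ' ≠ 0) (h' : ζ' / ζ ∈ F₁) :
    SubCore S H F₁ r P' G ζ' :=
  ⟨h.prime, h.card, h.le, h.gram, hζ', by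
    have := h.ovr.smul h'
    rwa [smul_smul, div_mul_cancel₀ _ h.ne] at this⟩

theorem ofG_mem {σ : F →+* F} {G : Matrix ι ι F} (hG : Over F₁ G) {u v : ι → F} (hu : ∀ i, u i ∈ F₁)
    (hv : ∀ i, v i ∈ F₁) : ofG σ G u v ∈ F₁ := by
  rw [ofG_eq_sum]
  exact sum_mem fun a _ => sum_mem fun b _ => mul_mem (mul_mem (hu a) (hG a b)) (map_mem_subfield _ _ (hv b))

theorem SubCore.rational (h : SubCore S H F₁ r P' G ζ) : Geo.IsFormRationalStructure S.B F₁ ζ P' := by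
  intro u v hu hv
  have := h.gram u v
  simp only [glEquiv_apply] at this
  rw [this, ← ofG_smul]
  exact ofG_mem h.ovr hu hv

/-- the ratio `σ ζ / ζ` -/
theorem SubCore.ratio [Nonempty ι] (hS : S.Nondeg) (h : SubCore S H F₁ r P' G ζ) : P.σ ζ / ζ * P.ε ∈ F₁ := by
  obtain ⟨i, hi⟩ := Function.ne_iff.1 (ne_zero_of_det (h.gram.det hS))
  obtain ⟨j, hj⟩ := Function.ne_iff.1 hi
  have h1 : P.σ (G j i) = P.ε * G i j := congrFun (congrFun h.gram.herm i) j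
  have h2 : P.σ (ζ * G j i) ∈ F₁ := map_mem_subfield _ _ (h.ovr j i)
  have h3 : ζ * G i j ∈ F₁ := h.ovr i j
  have hj' : G i j ≠ 0 := hj
  have := div_mem h2 h3
  rw [map_mul, h1] at this
  convert this using 1
  field_simp [h.ne]

end subcore

/-! ### a second form -/

theorem trace_mem_fixSub {σ : F →+* F} (hσ : ∀ a, σ (σ a) = a) {f g : (ι → F) → (ι → F) → F}
    (hf : Sesq (RingHom.id F) f) (hf' : Geo.IsNondegenerateForm f) (hg : Sesq σ g) (hg' : Geo.IsNondegenerateForm g)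
    {R : Subgroup (GL ι F)} (h1 : Geo.FixesForm (Geo.matrixSet R) f) (h2 : Geo.FixesForm (Geo.matrixSet R) g) :
    ∀ s ∈ Geo.matrixSet R, s.trace ∈ fixSub σ := by
  rintro _ ⟨x, hx, rfl⟩
  rw [mem_fixSub, trace_of_fix hσ hg hg' (h2 _ ⟨x, hx, rfl⟩), ← trace_of_fix (fun _ => rfl) hf hf' (h1 _ ⟨x, hx, rfl⟩)]
  rfl

theorem fixesForm_of_le {R : Subgroup (GL ι F)} (h : R ≤ IsoB S) : Geo.FixesForm (Geo.matrixSet R) S.B := by
  rintro _ ⟨x, hx, rfl⟩; exact h hx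

theorem adjC_matrixSet (hS : S.Nondeg) {R : Subgroup (GL ι F)} (h : R ≤ IsoB S) : AdjC S (Geo.matrixSet R) := by
  rintro _ ⟨x, hx, rfl⟩
  exact ⟨x⁻¹, inv_mem hx, (adj_iso hS (h hx)).symm⟩

theorem exists_subCore_of_group [Fintype F] [Nonempty ι] (hS : S.Nondeg) {R : Subgroup (GL ι F)}
    (hR : Full (Geo.matrixSet R)) (hn : NormsG H R) (hI : R ≤ IsoB S) {F₀ : Subfield F} (hF : F₀ ≠ ⊤)
    (htr : ∀ s ∈ Geo.matrixSet R, s.trace ∈ F₀) : ∃ F₁ r P' G ζ, F₀ ≤ F₁ ∧ SubCore S H F₁ r P' G ζ :=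
  exists_subCore hS (one_mem_matrixSet R) (mul_mem_matrixSet R) hR hn.matrixSet (adjC_matrixSet hS hI) hF htr

/-! ### irreducibility of the similarity group of a factor -/

/-- no subspace is invariant under all similarities -/
def SimIrr (σ : F →+* F) (G : Matrix κ κ F) : Prop :=
  ∀ W : Submodule F (κ → F), (∀ (a : GL κ F) (c : F), a.valᵀ * G * a.val.map σ = c • G →
    ∀ v ∈ W, a.val *ᵥ v ∈ W) → W = ⊥ ∨ W = ⊤

theorem TCore.simIrr [Nonempty μ] (hH : Irr H) {Φ : (κ × μ → F) ≃ₗ[F] (ι → F)} {G₁ : Matrix κ κ F}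
    {G₂ : Matrix μ μ F} {ε₁ ε₂ : F} (h : TCore S H Φ G₁ G₂ ε₁ ε₂) : SimIrr P.σ G₁ := by
  intro W hW
  let col : μ → ((κ × μ → F) →ₗ[F] (κ → F)) := fun j => LinearMap.funLeft F F fun i => (i, j)
  let U : Submodule F (ι → F) := ⨅ j, W.comap (col j ∘ₗ Φ.symm.toLinearMap)
  have hU : ∀ v, v ∈ U ↔ ∀ j, (fun i => Φ.symm v (i, j)) ∈ W := fun v => by
    simp only [U, Submodule.mem_iInf]; rfl
  rcases hH U (fun g hg v hv => by
    obtain ⟨a, b, c, -, h1, h2, -⟩ := h.kron g hg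
    rw [hU] at hv ⊢
    intro j
    have h3 : Φ.symm (g.val *ᵥ v) = (a.val ⊗ₖ b.val) *ᵥ Φ.symm v := by rw [← h1, tr_mulVec']; simp
    have : (fun i => Φ.symm (g.val *ᵥ v) (i, j)) = ∑ j', b.val j j' • a.val *ᵥ fun i => Φ.symm v (i, j') := by
      ext i
      simp only [h3, Matrix.mulVec, dotProduct, Fintype.sum_prod_type, Finset.sum_apply, Pi.smul_apply, smul_eq_mul,
        Finset.mul_sum, Matrix.kroneckerMap_apply]
      rw [Finset.sum_comm]
      exact Finset.sum_congr rfl fun _ _ => Finset.sum_congr rfl fun _ _ => by ring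
    rw [this]
    exact sum_mem fun j' _ => W.smul_mem _ (hW a c h2 _ (hv j'))) with h0 | h0
  · left
    rw [eq_bot_iff]
    intro w hw
    have : Φ (fun x => w x.1) ∈ U := (hU _).2 fun j => by simpa using hw
    rw [h0, Submodule.mem_bot, map_eq_zero_iff _ Φ.injective] at this
    obtain ⟨j⟩ := ‹Nonempty μ›
    ext i; exact congrFun this (i, j)
  · right
    rw [eq_top_iff]
    intro w _
    obtain ⟨j⟩ := ‹Nonempty μ›
    simpa using (hU (Φ fun x => w x.1)).1 (h0 ▸ trivial) j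

theorem exists_semilinear_zero [Finite F] (h2 : (2 : F) = 0) (hn : 2 ≤ Fintype.card κ) {D : (κ → F) → F}
    (hadd : ∀ u v, D (u + v) = D u + D v) (hs : ∀ (c : F) v, D (c • v) = c ^ 2 * D v) : ∃ v ≠ 0, D v = 0 := by
  have : Nontrivial κ := Fintype.one_lt_card_iff_nontrivial.1 hn
  obtain ⟨i, j, hij⟩ := exists_pair_ne κ
  by_cases hi : D (Pi.single i 1) = 0
  · exact ⟨_, by simp, hi⟩
  have hc : ringChar F = 2 := CharP.ringChar_of_prime_eq_zero Nat.prime_two (by simpa using h2)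
  obtain ⟨a, ha⟩ := FiniteField.isSquare_of_char_two hc (D (Pi.single j 1) / D (Pi.single i 1))
  refine ⟨a • Pi.single i 1 + Pi.single j 1, fun h0 => by simpa [hij, hij.symm] using congrFun h0 j, ?_⟩
  rw [hadd, hs, sq, ← ha, div_mul_cancel₀ _ hi]
  linear_combination D (Pi.single j 1) * h2

/-- the kernel of a semilinear functional -/
def semiKer (D : (κ → F) → F) (hadd : ∀ u v, D (u + v) = D u + D v) (hs : ∀ (c : F) v, D (c • v) = c ^ 2 * D v) :
    Submodule F (κ → F) where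
  carrier := {v | D v = 0}
  add_mem' {a b} ha hb := by simp only [Set.mem_setOf_eq] at *; rw [hadd, ha, hb, add_zero]
  zero_mem' := by simpa using hs 0 0
  smul_mem' c v hv := by simp only [Set.mem_setOf_eq] at *; rw [hs, hv, mul_zero]

theorem semilinear_eq_zero [Finite F] (h2 : (2 : F) = 0) (hn : 2 ≤ Fintype.card κ) {D : (κ → F) → F}
    (hadd : ∀ u v, D (u + v) = D u + D v) (hs : ∀ (c : F) v, D (c • v) = c ^ 2 * D v)
    (h : semiKer D hadd hs = ⊥ ∨ semiKer D hadd hs = ⊤) (v : κ → F) : D v = 0 := by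
  rcases h with h | h
  · obtain ⟨w, hw, hw'⟩ := exists_semilinear_zero h2 hn hadd hs
    exact absurd (h.le hw') hw
  · exact h.ge trivial

theorem SimIrr.diag [Finite F] (h2 : (2 : F) = 0) (hn : 2 ≤ Fintype.card κ) {G : Matrix κ κ F} (hG : Gᵀ = G)
    (h : SimIrr (RingHom.id F) G) (i : κ) : G i i = 0 := by
  have hs := sesq_ofG (RingHom.id F) G
  rw [← ofG_single (RingHom.id F) G i i]
  refine semilinear_eq_zero h2 hn (D := fun v => ofG (RingHom.id F) G v v) (fun u v => ?_) (fun c v => ?_)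
    (h _ fun a c ha v hv => ?_) _
  · rw [hs.add_left, hs.add_right, hs.add_right, ofG_id_swap G u v, hG]
    linear_combination ofG (RingHom.id F) G u v * h2
  · rw [hs.smul_left, hs.smul_right]; simp; ring
  · change ofG _ _ _ _ = 0
    rw [ofG_mulVec, ha, ofG_smul, show ofG (RingHom.id F) G v v = 0 from hv, mul_zero]

/-- a normal irreducible subgroup fixing a quadratic form in characteristic two -/
theorem fix_quad_of_norms [Finite F] (h2 : (2 : F) = 0) (hn : 2 ≤ Fintype.card ι) {N : Subgroup (GL ι F)}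
    (hN : Irr N) (hHN : NormsG H N) {Q : (ι → F) → F} (hs : ∀ (c : F) v, Q (c • v) = c ^ 2 * Q v)
    (hH : ∀ g ∈ H, ∀ u v, QuadraticMap.polar Q (g.val *ᵥ u) (g.val *ᵥ v) = QuadraticMap.polar Q u v)
    (hQ : ∀ x ∈ N, ∀ v, Q (x.val *ᵥ v) = Q v) : ∀ g ∈ H, ∀ v, Q (g.val *ᵥ v) = Q v := by
  intro g hg v
  rw [← sub_eq_zero]
  refine semilinear_eq_zero h2 hn (D := fun v => Q (g.val *ᵥ v) - Q v) (fun u v => ?_) (fun c v => ?_)
    (hN _ fun x hx v hv => ?_) _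
  · have := hH g hg u v
    simp only [QuadraticMap.polar, Matrix.mulVec_add] at this ⊢
    linear_combination this
  · simp only [Matrix.mulVec_smul, hs]; ring
  · change Q _ - Q _ = 0
    rw [← cj_mulVec, cj_coe, hQ _ (hHN g hg x hx), hQ x hx]; exact hv

/-! ### tensor powers -/

/-- the tensor power case, with the form on the factor -/
structure PCore (S : PQ P (ι → F)) (H : Subgroup (GL ι F)) {k t : ℕ} (Φ : ((Fin t → Fin k) → F) ≃ₗ[F] (ι → F))
    (G₁ : Matrix (Fin k) (Fin k) F) (c ε₁ : F) : Prop where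
  two_le_k : 2 ≤ k
  two_le_t : 2 ≤ t
  det : G₁.det ≠ 0
  ne : c ≠ 0
  gram : HasGram S Φ (c • pt fun _ => G₁)
  herm : (G₁.map P.σ)ᵀ = ε₁ • G₁
  irr : SimIrr P.σ G₁
  perm : ∀ h ∈ H, ∃ σ : Equiv.Perm (Fin t), ∀ i, ∃ (a : GL (Fin k) F) (m : F),
    a.valᵀ * G₁ * a.val.map P.σ = m • G₁ ∧ ∀ X, cj (trG Φ h) (emb i X) = emb (σ i) (cj a X)

section pt
variable {τ : Type} [Fintype τ] [DecidableEq τ]

theorem pt_mul_emb (f : τ → Matrix κ κ F) (i : τ) (X : Matrix κ κ F) :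
    pt f * emb i X = pt (Function.update f i (f i * X)) := by
  rw [emb_apply, ← pt_mul]; congr 1; funext j
  by_cases h : j = i
  · subst h; simp
  · simp [h]

theorem emb_mul_pt (f : τ → Matrix κ κ F) (i : τ) (X : Matrix κ κ F) :
    emb i X * pt f = pt (Function.update f i (X * f i)) := by
  rw [emb_apply, ← pt_mul]; congr 1; funext j
  by_cases h : j = i
  · subst h; simp
  · simp [h]

theorem det_pt_ne_zero {f : τ → Matrix κ κ F} (h : ∀ i, (f i).det ≠ 0) : (pt f).det ≠ 0 :=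
  (ptG fun i => Matrix.GeneralLinearGroup.mkOfDetNeZero (f i) (h i)).det_ne_zero

theorem adjG_smul {σ : F →+* F} (hσ : ∀ a, σ (σ a) = a) {G : Matrix ι ι F} (hG : G.det ≠ 0) {c : F} (hc : c ≠ 0)
    (X : Matrix ι ι F) : adjG σ (c • G) X = adjG σ G X := by
  rw [adjG_eq_iff hσ (by simp [hc, hG]), Matrix.mul_smul, Matrix.smul_mul, mul_adjG hσ hG]

theorem adjG_pt_emb {σ : F →+* F} (hσ : ∀ a, σ (σ a) = a) {f : τ → Matrix κ κ F} (h : ∀ i, (f i).det ≠ 0) (i : τ)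
    (X : Matrix κ κ F) : adjG σ (pt f) (emb i X) = emb i (adjG σ (f i) X) := by
  rw [adjG_eq_iff hσ (det_pt_ne_zero h), emb_transpose, emb_map, emb_mul_pt, pt_mul_emb, mul_adjG hσ (h i)]

theorem emb_injective [Nonempty κ] (i : τ) : Function.Injective (emb i : Matrix κ κ F → _) := algHom_injective _

theorem adjG_mul {σ : F →+* F} (hσ : ∀ a, σ (σ a) = a) {G : Matrix ι ι F} (hG : G.det ≠ 0) (X Y : Matrix ι ι F) :
    adjG σ G (X * Y) = adjG σ G Y * adjG σ G X := by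
  rw [adjG_eq_iff hσ hG, Matrix.map_mul, ← mul_assoc, mul_adjG hσ hG, mul_assoc, mul_adjG hσ hG,
    Matrix.transpose_mul, mul_assoc]

theorem adjG_surj {σ : F →+* F} (hσ : ∀ a, σ (σ a) = a) {G : Matrix ι ι F} (hG : G.det ≠ 0) (Y : Matrix ι ι F) :
    ∃ X, adjG σ G X = Y :=
  ⟨(G * Y.map σ * G⁻¹)ᵀ, by
    rw [adjG_eq_iff hσ hG, Matrix.transpose_transpose, mul_assoc, Matrix.nonsing_inv_mul _ hG.isUnit, mul_one]⟩

theorem fix_iff_adjG {σ : F →+* F} (hσ : ∀ a, σ (σ a) = a) {G : Matrix ι ι F} (hG : G.det ≠ 0) (y : GL ι F) :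
    y.valᵀ * G * y.val.map σ = G ↔ adjG σ G y.val = (y⁻¹).val := by
  rw [adjG_eq_iff hσ hG]
  constructor
  · intro h
    conv_rhs => rw [← h]
    rw [mul_assoc, ← Matrix.map_mul]; simp
  · intro h
    rw [h, mul_assoc, ← Matrix.map_mul]; simp

theorem sim_of_cj_adjG {σ : F →+* F} (hσ : ∀ a, σ (σ a) = a) {G : Matrix ι ι F} (hG : G.det ≠ 0) {a : GL ι F}
    (h : ∀ X, adjG σ G (cj a X) = cj a (adjG σ G X)) : ∃ m : F, a.valᵀ * G * a.val.map σ = m • G := by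
  obtain ⟨m, hm⟩ : IsSc (adjG σ G a.val * a.val) := isSc_of_comm fun Y => by
    obtain ⟨X, rfl⟩ := adjG_surj hσ hG Y
    rw [mul_assoc, ← cj_mul_self, ← h, ← mul_assoc, ← adjG_mul hσ hG, cj_mul_self, adjG_mul hσ hG, mul_assoc]
  refine ⟨σ m, ?_⟩
  rw [← mul_adjG hσ hG, mul_assoc, ← Matrix.map_mul, hm]
  ext i j; simp [Matrix.mul_apply, Matrix.one_apply, apply_ite σ, mul_comm]

end pt

variable {k t : ℕ} {Φ : ((Fin t → Fin k) → F) ≃ₗ[F] (ι → F)}

theorem pcore_of_gram (hS : S.Nondeg) (hI : H ≤ IsoB S) (hk : 2 ≤ k) (ht : 2 ≤ t) {G₁ : Matrix (Fin k) (Fin k) F}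
    {c ε₁ : F} (hd : G₁.det ≠ 0) (hc : c ≠ 0) (hG : HasGram S Φ (c • pt fun _ => G₁))
    (hh : (G₁.map P.σ)ᵀ = ε₁ • G₁) (hi : SimIrr P.σ G₁)
    (hp : ∀ h ∈ H, ∃ σ : Equiv.Perm (Fin t), ∀ i X, ∃ Y, cj (trG Φ h) (emb i X) = emb (σ i) Y) :
    PCore S H Φ G₁ c ε₁ := by
  have : Nonempty (Fin k) := ⟨⟨0, by omega⟩⟩
  refine ⟨hk, ht, hd, hc, hG, hh, hi, fun h hh => ?_⟩
  obtain ⟨σ, hσ⟩ := hp h hh
  refine ⟨σ, fun i => ?_⟩
  obtain ⟨a, ha⟩ := exists_cj_of_norm (emb i) (emb (σ i)) _ (hσ i)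
  obtain ⟨m, hm⟩ := sim_of_cj_adjG P.σσ hd (a := a) fun X => emb_injective (σ i) (by
    have h1 := congrArg (tr Φ) (adj_cj hS (IsoB_le_sim (hI hh)) ((tr Φ).symm (emb i X)))
    rwa [hG.tr_adj hS, tr_cj, tr_cj, hG.tr_adj hS, AlgEquiv.apply_symm_apply, ha,
      adjG_smul P.σσ (det_pt_ne_zero fun _ => hd) hc, adjG_smul P.σσ (det_pt_ne_zero fun _ => hd) hc,
      adjG_pt_emb P.σσ (fun _ => hd), adjG_pt_emb P.σσ (fun _ => hd), ha] at h1)
  exact ⟨a, m, hm, ha⟩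

theorem WCore.exists_pcore (hS : S.Nondeg) (hI : H ≤ IsoB S) {P₁ : Subgroup (GL (Fin k) F)} (h : WCore H Φ P₁) :
    ∃ G₁ c ε₁, PCore S H Φ G₁ c ε₁ ∧ ∀ y ∈ P₁, y.valᵀ * G₁ * y.val.map P.σ = G₁ := by
  have hk := h.two_le_k
  have ht := h.two_le_t
  have : Nonempty (Fin k) := ⟨⟨0, by omega⟩⟩
  obtain ⟨G, hG⟩ := exists_hasGram S Φ
  have hd := hG.det hS
  let g : GL (Fin t → Fin k) F := Matrix.GeneralLinearGroup.mkOfDetNeZero G hd
  have hiso : ∀ i, ∀ y ∈ P₁, emb i y.valᵀ * G * emb i (y.val.map P.σ) = G := fun i y hy => by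
    simpa [coe_embG, emb_transpose, emb_map] using hG.iso.1 (hI (h.mem i y hy))
  have h1 : ∀ i X, ∃ Y, cj g⁻¹ (emb i X) = emb i Y := by
    intro i X
    rw [← Matrix.transpose_transpose X]
    refine h.full.induction (p := fun X => ∃ Y, cj g⁻¹ (emb i Xᵀ) = emb i Y) ?_ ⟨0, by simp⟩ ?_ ?_ Xᵀ
    · rintro _ ⟨y, hy, rfl⟩
      refine ⟨(y⁻¹).val.map P.σ, ?_⟩
      rw [eq_comm, ← cj_inv_cj g (emb i _), EmbeddingLike.apply_eq_iff_eq, cj_eq_iff]
      change G * _ = _ * G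
      conv_lhs => rw [← hiso i y hy]
      rw [mul_assoc, ← map_mul, ← Matrix.map_mul]; simp
    · rintro X Y ⟨X', hX⟩ ⟨Y', hY⟩; exact ⟨X' + Y', by simp [hX, hY]⟩
    · rintro c X ⟨X', hX⟩; exact ⟨c • X', by simp [hX]⟩
  choose a ha using fun i => exists_cj_of_norm (emb i) (emb i) _ (h1 i)
  obtain ⟨c, hc⟩ := exists_eq_ptG _ a ha
  have hG' : G = (c⁻¹ : Fˣ).val • pt fun i => ((a i)⁻¹).val := by
    change g.val = _
    rw [← inv_inv g, hc, mul_inv_rev, ← map_inv]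
    simp only [Units.val_mul, coe_sc, Matrix.mul_smul, mul_one]; rfl
  have hfix : ∀ i, ∀ y ∈ P₁, y.valᵀ * ((a i)⁻¹).val * y.val.map P.σ = ((a i)⁻¹).val := by
    intro i y hy
    have h2 := (fix_iff_adjG P.σσ hd (embG i y)).1 (by simpa [coe_embG, emb_transpose, emb_map] using hiso i y hy)
    rw [hG', adjG_smul P.σσ (det_pt_ne_zero fun i => ((a i)⁻¹).det_ne_zero) (c⁻¹).ne_zero, ← map_inv, coe_embG,
      coe_embG, adjG_pt_emb P.σσ fun i => ((a i)⁻¹).det_ne_zero] at h2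
    exact (fix_iff_adjG P.σσ ((a i)⁻¹).det_ne_zero y).2 (emb_injective i h2)
  let i₀ : Fin t := ⟨0, by omega⟩
  have hd₀ := ((a i₀)⁻¹).det_ne_zero
  have h3 : ∀ i, ∃ d : F, ((a i)⁻¹).val = d • ((a i₀)⁻¹).val := fun i =>
    schur_gram h.full P.σ hd₀ (by
      rintro _ ⟨y, hy, rfl⟩
      exact ⟨y.det_ne_zero, 1, by simpa using hfix i₀ y hy, by simpa using hfix i y hy⟩)
  choose d hd' using h3
  obtain ⟨ε₁, hε⟩ := exists_eps_of_fix h.full P.σσ hd₀ (hfix i₀)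
  have hG'' : G = ((c⁻¹ : Fˣ).val * ∏ i, d i) • pt fun _ : Fin t => ((a i₀)⁻¹).val := by
    rw [hG', funext hd', pt_smul, smul_smul]
  refine ⟨_, _, ε₁, pcore_of_gram hS hI hk ht hd₀ (fun h0 => hd ?_) (hG'' ▸ hG) hε (fun W hW => ?_) h.perm, hfix i₀⟩
  · rw [hG'', h0]; simp
  · refine h.full.irred W ?_
    rintro _ ⟨y, hy, rfl⟩
    exact hW y 1 (by simpa using hfix i₀ y hy)

theorem TCore.pcore (hS : S.Nondeg) (hH : Irr H) (hI : H ≤ IsoB S) (hk : 2 ≤ k)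
    {Φ : (Fin k × Fin k → F) ≃ₗ[F] (ι → F)} {G₁ : Matrix (Fin k) (Fin k) F} {ε₁ ε₂ d : F} (hd : d ≠ 0)
    (h : TCore S H Φ G₁ (d • G₁) ε₁ ε₂) : PCore S H (sqFr Φ) G₁ d ε₁ := by
  have : Nonempty (Fin k) := ⟨⟨0, by omega⟩⟩
  refine pcore_of_gram hS hI hk le_rfl h.det₁ hd ?_ h.herm₁ (h.simIrr hH) fun g hg => ⟨1, fun i X => ?_⟩
  · have : (d • pt fun _ : Fin 2 => G₁) = Matrix.reindex (finTwoArrowEquiv _).symm (finTwoArrowEquiv _).symm
        (G₁ ⊗ₖ (d • G₁)) := by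
      ext x y; simp [pt_apply, mul_left_comm]
    rw [this]
    exact h.gram.reindex _
  · obtain ⟨a, b, -, -, hab, -⟩ := h.kron g hg
    have : trG (sqFr Φ) g = ptG ![a, b] := Units.ext (by
      rw [coe_trG, tr_sqFr Φ hab, coe_ptG]; congr 1; funext i; fin_cases i <;> rfl)
    exact ⟨_, by rw [this, cj_ptG_emb]; rfl⟩

/-- change of basis in the second factor -/
theorem TCore.gl₂ [Nonempty κ] [Nonempty μ] (hI : H ≤ IsoB S) {Φ : (κ × μ → F) ≃ₗ[F] (ι → F)} {G₁ : Matrix κ κ F}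
    {G₂ : Matrix μ μ F} {ε₁ ε₂ : F} (h : TCore S H Φ G₁ G₂ ε₁ ε₂) (b : GL μ F) :
    ∃ Φ' : (κ × μ → F) ≃ₗ[F] (ι → F), ∃ ε₁ ε₂, TCore S H Φ' G₁ (b.valᵀ * G₂ * b.val.map P.σ) ε₁ ε₂ := by
  let g : GL (κ × μ) F := Units.map (kronR κ μ F : Matrix μ μ F →* _) b
  have hg : g.val = 1 ⊗ₖ b.val := rfl
  have hg' : (g⁻¹).val = 1 ⊗ₖ (b⁻¹).val := rfl
  refine ⟨(glEquiv g).trans Φ, tcore_of_gram hI h.det₁ ?_ ?_ fun x hx => ?_⟩
  · have : (b.val.map P.σ).det ≠ 0 := by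
      rw [← RingHom.mapMatrix_apply, ← RingHom.map_det]; exact P.σ_ne_zero b.det_ne_zero
    simp [h.det₂, this, b.det_ne_zero]
  · have := h.gram.gl g
    rwa [hg, kron_transpose, kron_map, ← Matrix.mul_kronecker_mul, ← Matrix.mul_kronecker_mul, Matrix.transpose_one,
      Matrix.map_one _ (map_zero _) (map_one _), one_mul, mul_one] at this
  · obtain ⟨a, b', -, -, hab, -⟩ := h.kron x hx
    refine ⟨a, b⁻¹ * b' * b, ?_⟩
    rw [tr_trans, tr_glEquiv, hab, cj_apply, inv_inv, hg, hg', ← Matrix.mul_kronecker_mul, ← Matrix.mul_kronecker_mul]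
    simp

section pcore
variable {G₁ : Matrix (Fin k) (Fin k) F} {c ε₁ : F}

theorem PCore.le_wreath {e : ι ≃ (Fin t → Fin k)} {P' : GL ι F} (h : PCore S H (fr e P') G₁ c ε₁) :
    H ≤ Geo.tensorWreathSubgroup k t e P' := by
  intro g hg
  obtain ⟨σ, hσ⟩ := h.perm g hg
  have := h.two_le_k
  have := h.two_le_t
  refine (mem_tensorWreathSubgroup_iff e P' g).2 (mem_tensorWreathStandard (by omega) (by omega) _ σ fun i X => ?_)
  obtain ⟨a, -, -, ha⟩ := hσ i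
  exact ⟨_, ha X⟩

theorem PCore.powerForm {e : ι ≃ (Fin t → Fin k)} {P' : GL ι F} (h : PCore S H (fr e P') G₁ c ε₁) {ν : F}
    (hν : ν ≠ 0) : Geo.IsTensorPowerFormStructure P.σ S.B (ofG P.σ (ν • G₁)) e P' := by
  refine ⟨c * (ν ^ t)⁻¹, mul_ne_zero h.ne (inv_ne_zero (pow_ne_zero _ hν)), fun x y => ?_⟩
  have h1 := ofG_eq_sum P.σ (pt fun _ : Fin t => ν • G₁) x y
  simp only [pt_apply] at h1
  rw [gram_ofG, ← h1, ← fr_apply, ← fr_apply, h.gram, pt_smul (fun _ => ν), ofG_smul, ofG_smul]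
  simp; field_simp

theorem PCore.card (_ : PCore S H Φ G₁ c ε₁) : Fintype.card ι = k ^ t := by simpa using card_eq_of_frame Φ

theorem PCore.eps (h : PCore S H Φ G₁ c ε₁) : P.σ c * ε₁ ^ t = P.ε * c := by
  have := h.two_le_k
  have : Nonempty (Fin k) := ⟨⟨0, by omega⟩⟩
  have h1 := h.gram.herm
  have h2 : ((c • pt fun _ : Fin t => G₁).map P.σ)ᵀ = (P.σ c * ε₁ ^ t) • pt fun _ : Fin t => G₁ := by
    rw [Matrix.map_smul' _ _ _ (map_mul _), Matrix.transpose_smul, pt_map, pt_transpose]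
    simp only [h.herm]
    rw [pt_smul (fun _ => ε₁), smul_smul]; simp
  rw [h2, smul_smul] at h1
  exact smul_left_injective F (ne_zero_of_det (det_pt_ne_zero fun _ => h.det)) h1

theorem PCore.tr_adj (h : PCore S H Φ G₁ c ε₁) (hS : S.Nondeg) (i : Fin t) (X : Matrix (Fin k) (Fin k) F) :
    adj S ((tr Φ).symm (emb i X)) = (tr Φ).symm (emb i (adjG P.σ G₁ X)) := by
  rw [AlgEquiv.eq_symm_apply, h.gram.tr_adj hS, AlgEquiv.apply_symm_apply,
    adjG_smul P.σσ (det_pt_ne_zero fun _ => h.det) h.ne, adjG_pt_emb P.σσ fun _ => h.det]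

theorem isSc_of_emb {τ : Type} [Fintype τ] [DecidableEq τ] [Nonempty κ] {i : τ} {X : Matrix κ κ F}
    (h : IsSc (emb i X)) : IsSc X := by
  obtain ⟨c, hc⟩ := h
  exact ⟨c, emb_injective i (by rw [hc, map_smul, map_one])⟩

/-- a commutative set in the factor that is invariant under all similarities is scalar -/
theorem PCore.isSc (h : PCore S H Φ G₁ c ε₁) (hS : S.Nondeg) (hc : NoComm S H) {T : Set (Matrix (Fin k) (Fin k) F)}
    (hn : ∀ (a : GL (Fin k) F) (m : F), a.valᵀ * G₁ * a.val.map P.σ = m • G₁ → ∀ x ∈ T, cj a x ∈ T)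
    (hcomm : ∀ x ∈ T, ∀ y ∈ T, x * y = y * x) (ha : ∀ x ∈ T, adjG P.σ G₁ x ∈ T) : ∀ x ∈ T, IsSc x := by
  have := h.two_le_k
  have := h.two_le_t
  have : Nonempty (Fin k) := ⟨⟨0, by omega⟩⟩
  intro x hx
  have := hc.of_set hS (T := {X | ∃ i, ∃ x ∈ T, X = (tr Φ).symm (emb i x)}) ?_ ?_ ?_ _ ⟨⟨0, by omega⟩, x, hx, rfl⟩
  · rw [← isSc_tr_iff Φ, AlgEquiv.apply_symm_apply] at this
    exact isSc_of_emb this
  · rintro g hg _ ⟨i, x, hx, rfl⟩
    obtain ⟨σ, hσ⟩ := h.perm g hg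
    obtain ⟨a, m, h1, h2⟩ := hσ i
    exact Algebra.subset_adjoin ⟨σ i, _, hn a m h1 x hx, by
      rw [AlgEquiv.eq_symm_apply, tr_cj, AlgEquiv.apply_symm_apply, h2]⟩
  · rintro _ ⟨i, x, hx, rfl⟩ _ ⟨j, y, hy, rfl⟩
    rw [← map_mul, ← map_mul]
    by_cases hij : i = j
    · subst hij; rw [← map_mul, ← map_mul, hcomm x hx y hy]
    · rw [emb_comm hij]
  · rintro _ ⟨i, x, hx, rfl⟩
    exact Algebra.subset_adjoin ⟨i, _, ha x hx, h.tr_adj hS i x⟩

end pcore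

end Cfsg.Agent.Asch
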