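import Cfsg.Agent.Asch.Bilin
import Cfsg.Agent.Asch.F4
import Cfsg.Agent.H7.Ortho

/-!
The subgroup structure theorem, unitary case.
-/

set_option autoImplicit false
set_option linter.unusedSectionVars false
set_option maxHeartbeats 400000

namespace Cfsg.Agent.Asch

open scoped MatrixGroups Matrix Kronecker commutatorElement
open Form Module

variable {ι : Type} [Fintype ι] [DecidableEq ι] {F : Type*} [Field F] [Fintype F]
variable {κ : Type} [Fintype κ] [DecidableEq κ] {μ : Type} [Fintype μ] [DecidableEq μ]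

section general
variable {P : FP F} {S : PQ P (ι → F)} {H : Subgroup (GL ι F)}

theorem even_of_fixes {σ : F →+* F} (hσ : ∀ a, σ (σ a) = a) (hne : ∃ a, σ a ≠ a) {F₁ : Subfield F} {r : ℕ}
    (hc : Fintype.card F = Nat.card F₁ ^ r) (h : ∀ a ∈ F₁, σ a = a) : Even r := by
  let α : Gal(F/F₁) := AlgEquiv.ofRingEquiv (f := RingEquiv.ofBijective σ ⟨σ.injective, fun a => ⟨σ a, hσ a⟩⟩)
    fun c => h c c.2
  have := Fact.mk Nat.prime_two
  have hord := orderOf_eq_prime (x := α) (p := 2) (AlgEquiv.ext fun x => hσ x) fun h0 => by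
    obtain ⟨a, ha⟩ := hne; exact ha (AlgEquiv.congr_fun h0 a)
  have h1 := orderOf_dvd_natCard α
  rw [hord, IsGalois.card_aut_eq_finrank] at h1
  rw [card_eq_pow_finrank_subfield F₁] at hc
  rw [← Nat.pow_right_injective (Finite.one_lt_card (α := F₁)) hc]
  exact even_iff_two_dvd.2 h1

theorem adjG_cj_of_sim {σ : F →+* F} (hσ : ∀ a, σ (σ a) = a) {G : Matrix ι ι F} (hG : G.det ≠ 0) {a : GL ι F} {m : F}
    (h : a.valᵀ * G * a.val.map σ = m • G) (X : Matrix ι ι F) : adjG σ G (cj a X) = cj a (adjG σ G X) := by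
  rw [adjG_eq_iff hσ hG]
  have h1 : IsUnit a.valᵀ := by rw [Matrix.isUnit_transpose]; exact a.isUnit
  have h2 : IsUnit (a.val.map σ) := a.isUnit.map σ.mapMatrix
  rw [← h1.mul_right_inj, ← h2.mul_left_inj, ← mul_assoc, ← Matrix.transpose_mul, cj_mul_self, mul_assoc _ (_ * _),
    mul_assoc G, ← Matrix.map_mul, cj_mul_self, Matrix.map_mul, ← mul_assoc, ← mul_assoc, h, Matrix.transpose_mul,
    mul_assoc, mul_assoc, ← mul_assoc _ G, h, Matrix.mul_smul, Matrix.smul_mul, mul_adjG hσ hG]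

theorem TCore.rescale [Nonempty κ] [Nonempty μ] (hI : H ≤ IsoB S) {Φ : (κ × μ → F) ≃ₗ[F] (ι → F)}
    {G₁ : Matrix κ κ F} {G₂ : Matrix μ μ F} {ε₁ ε₂ : F} (h : TCore S H Φ G₁ G₂ ε₁ ε₂) {ν : F} (hν : ν ≠ 0) :
    ∃ ε₁ ε₂, TCore S H Φ (ν • G₁) (ν⁻¹ • G₂) ε₁ ε₂ := by
  refine tcore_of_gram hI (by simp [hν, h.det₁]) (by simp [hν, h.det₂]) ?_ fun g hg => ?_
  · rw [Matrix.smul_kronecker, Matrix.kronecker_smul, smul_smul, mul_inv_cancel₀ hν, one_smul]; exact h.gram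
  · obtain ⟨a, b, -, -, h1, -⟩ := h.kron g hg
    exact ⟨a, b, h1⟩

theorem B_pow {x : Matrix ι ι F} {c : F} (h : ∀ u v, S.B (x *ᵥ u) (x *ᵥ v) = c * S.B u v) (k : ℕ) (u v : ι → F) :
    S.B (x ^ k *ᵥ u) (x ^ k *ᵥ v) = c ^ k * S.B u v := by
  induction k with
  | zero => simp
  | succ k ih => rw [pow_succ', ← Matrix.mulVec_mulVec, ← Matrix.mulVec_mulVec, h, ih]; ring

theorem ES.adjC [Nonempty ι] (hS : S.Nondeg) (hI : H ≤ IsoB S) {R : Subgroup (GL ι F)} {r m : ℕ} (h : ES H R r m)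
    (hz : ∀ c : Fˣ, sc ι c ∈ R ↔ c ^ (r * Nat.gcd 2 r) = 1) : AdjC S (Geo.matrixSet R) := by
  rintro _ ⟨x, hx, rfl⟩
  obtain ⟨c, hc⟩ := sup_le_sim hI (h.le hx)
  have h1 : x ^ (r * Nat.gcd 2 r) = 1 := by
    rw [← h.symp.exponent_eq]; exact congrArg Subtype.val (Monoid.pow_exponent_eq_one (⟨x, hx⟩ : R))
  have h2 := B_pow hc (r * Nat.gcd 2 r)
  rw [← Units.val_pow_eq_pow_val, h1] at h2
  obtain ⟨i⟩ := ‹Nonempty ι›
  obtain ⟨y, hy⟩ := hS.exists_ne (x := Pi.single i 1) (by simp)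
  have h3 : (c : F) ^ (r * Nat.gcd 2 r) = 1 :=
    (mul_left_eq_self₀.1 (by simpa only [Units.val_one, Matrix.one_mulVec] using (h2 y _).symm)).resolve_right hy
  refine ⟨sc ι (Units.map (P.σ : F →* F) c) * x⁻¹, mul_mem ((hz _).2 (Units.ext ?_)) (inv_mem hx), ?_⟩
  · simp [← map_pow, h3]
  · change _ = adj S x.val
    rw [adj_sim hS hc]; simp

theorem Full.kron {A : Set (Matrix κ κ F)} {B : Set (Matrix μ μ F)} (hA : Full A) (hB : Full B) :
    Full {Z | ∃ x ∈ A, ∃ y ∈ B, Z = x ⊗ₖ y} := by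
  have h : ∀ X Y, X ⊗ₖ Y ∈ Submodule.span F {Z | ∃ x ∈ A, ∃ y ∈ B, Z = x ⊗ₖ y} := fun X Y => by
    refine hA.induction (p := fun X => X ⊗ₖ Y ∈ _) (fun x hx => ?_) (by simp)
      (fun x y hx hy => by rw [Matrix.add_kronecker]; exact add_mem hx hy)
      (fun c x hx => by rw [Matrix.smul_kronecker]; exact Submodule.smul_mem _ _ hx) X
    exact hB.induction (p := fun Y => x ⊗ₖ Y ∈ Submodule.span F {Z | ∃ x ∈ A, ∃ y ∈ B, Z = x ⊗ₖ y})
      (fun y hy => Submodule.subset_span ⟨x, hx, y, hy, rfl⟩) (by simp)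
      (fun x y hx hy => by rw [Matrix.kronecker_add]; exact add_mem hx hy)
      (fun c x hx => by rw [Matrix.kronecker_smul]; exact Submodule.smul_mem _ _ hx) Y
  refine full_of_single fun a b => ?_
  have := h (Matrix.single a.1 b.1 1) (Matrix.single a.2 b.2 1)
  rwa [Matrix.single_kronecker_single, mul_one] at this

theorem commutator_mem_scalars_closure {T : Set (GL ι F)} (h : ∀ x ∈ T, ∀ y ∈ T, ⁅x, y⁆ ∈ Geo.scalars ι F) :
    ∀ x ∈ Subgroup.closure T, ∀ y ∈ Subgroup.closure T, ⁅x, y⁆ ∈ Geo.scalars ι F := by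
  let π := QuotientGroup.mk' (Geo.scalars ι F)
  have h1 : ∀ x y, ⁅x, y⁆ ∈ Geo.scalars ι F ↔ π x * π y = π y * π x := fun x y => by
    rw [← QuotientGroup.eq_one_iff, ← commutatorElement_eq_one_iff_mul_comm, ← map_commutatorElement]; rfl
  have h2 : ∀ y, (∀ x ∈ T, π x * π y = π y * π x) → ∀ x ∈ Subgroup.closure T, π x * π y = π y * π x := fun y hy x hx =>
    Subgroup.mem_centralizer_singleton_iff.1 ((Subgroup.closure_le ((Subgroup.centralizer {π y}).comap π)).2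
      (fun x hx => Subgroup.mem_centralizer_singleton_iff.2 (hy x hx)) hx)
  intro x hx y hy
  exact (h1 x y).2 (h2 y (fun a ha => (h2 a (fun b hb => (h1 b a).1 (h b hb a ha)) y hy).symm) x hx)

theorem full_of_emb {k t : ℕ} (Φ : ((Fin t → Fin k) → F) ≃ₗ[F] (ι → F)) {T : Set (GL (Fin k) F)}
    (hT : Full (Units.val '' T)) {R : Subgroup (GL ι F)} (hR : ∀ i : Fin t, ∀ y ∈ T, (trG Φ).symm (embG i y) ∈ R) :
    Full (Geo.matrixSet R) := by
  rw [← alg_eq_top_iff, eq_top_iff]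
  have h1 : ∀ i X, (tr Φ).symm (emb i X) ∈ alg F R := by
    intro i X
    refine hT.induction (p := fun X => (tr Φ).symm (emb i X) ∈ alg F R) ?_ (by simp)
      (fun x y hx hy => by rw [map_add, map_add]; exact add_mem hx hy)
      (fun c x hx => by rw [map_smul, map_smul]; exact Subalgebra.smul_mem _ hx c) X
    rintro _ ⟨y, hy, rfl⟩
    exact mem_alg (g := (trG Φ).symm (embG i y)) (hR i y hy)
  have h2 : ∀ f : Fin t → Matrix (Fin k) (Fin k) F, (tr Φ).symm (pt f) ∈ alg F R :=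
    pi_induction (by simp [pt_one]) h1 fun f g hf hg => by rw [pt_mul, map_mul]; exact mul_mem hf hg
  intro X _
  rw [← (tr Φ).symm_apply_apply X, Matrix.matrix_eq_sum_single (tr Φ X)]
  simp only [map_sum]
  refine sum_mem fun x _ => sum_mem fun y _ => ?_
  rw [show Matrix.single x y (tr Φ X x y) = tr Φ X x y • Matrix.single x y (1 : F) by simp, map_smul, ← pt_single]
  exact Subalgebra.smul_mem _ (h2 _) _

/-- a symplectic-type group built from an invariant set in the factor of a tensor power -/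
theorem PCore.exists_es [Nonempty ι] (hS : S.Nondeg) (hc : NoComm S H) (hn : 2 ≤ Fintype.card ι) {k t : ℕ}
    {Φ : ((Fin t → Fin k) → F) ≃ₗ[F] (ι → F)} {G₁ : Matrix (Fin k) (Fin k) F} {c ε₁ : F} (h : PCore S H Φ G₁ c ε₁)
    {T : Set (GL (Fin k) F)} (hT : Full (Units.val '' T)) (hiso : ∀ x ∈ T, x.valᵀ * G₁ * x.val.map P.σ = G₁)
    (h3 : ∀ x ∈ T, x ^ 3 = 1) (hcomm : ∀ x ∈ T, ∀ y ∈ T, ⁅x, y⁆ ∈ Geo.scalars (Fin k) F) (hF : ∀ c : Fˣ, c ^ 3 = 1)
    (hN : ∀ (a : GL (Fin k) F) (m : F), m ≠ 0 → a.valᵀ * G₁ * a.val.map P.σ = m • G₁ → ∀ x ∈ T, a * x * a⁻¹ ∈ T) :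
    ∃ R m, R ≤ IsoB S ∧ NormsG H R ∧ ES (H ⊔ R) R 3 m := by
  have := h.two_le_k
  have : Nonempty (Fin k) := ⟨⟨0, by omega⟩⟩
  let T' : Set (GL ι F) := {x | ∃ i : Fin t, ∃ y ∈ T, x = (trG Φ).symm (embG i y)}
  have hfull := full_of_emb Φ hT (R := Subgroup.closure T') fun i y hy => Subgroup.subset_closure ⟨i, y, hy, rfl⟩
  have hI : Subgroup.closure T' ≤ IsoB S := by
    rw [Subgroup.closure_le]
    rintro _ ⟨i, y, hy, rfl⟩
    refine h.gram.iso.2 ?_
    rw [coe_trG_symm, AlgEquiv.apply_symm_apply, coe_embG, Matrix.mul_smul, Matrix.smul_mul, emb_fix _ _ _ (hiso y hy)]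
  have hnorm : NormsG H (Subgroup.closure T') := by
    refine NormsG.closure ?_
    rintro g hg _ ⟨i, y, hy, rfl⟩
    obtain ⟨σ, hσ⟩ := h.perm g hg
    obtain ⟨a, m, h1, h2⟩ := hσ i
    have hm : m ≠ 0 := by
      rintro rfl
      have := congrArg Matrix.det h1
      rw [Matrix.det_mul, Matrix.det_mul, ← RingHom.mapMatrix_apply, ← RingHom.map_det] at this
      simp [a.det_ne_zero, h.det] at this
    refine Subgroup.subset_closure ⟨σ i, _, hN a m hm h1 y hy, ?_⟩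
    rw [MulEquiv.eq_symm_apply]
    apply Units.ext
    rw [coe_embG, ← cj_coe, ← h2, ← coe_embG, cj_coe]; simp
  have hc' : ∀ x ∈ Subgroup.closure T', ∀ y ∈ Subgroup.closure T', ⁅x, y⁆ ∈ Geo.scalars ι F := by
    refine commutator_mem_scalars_closure ?_
    rintro _ ⟨i, x, hx, rfl⟩ _ ⟨j, y, hy, rfl⟩
    rw [← map_commutatorElement, mem_scalars_iff, coe_trG_symm, ← isSc_tr_iff Φ, AlgEquiv.apply_symm_apply]
    by_cases hij : i = j
    · subst hij
      obtain ⟨d, hd⟩ := (mem_scalars_iff _).1 (hcomm x hx y hy)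
      exact ⟨d, by rw [← map_commutatorElement, coe_embG, hd, map_smul, map_one]⟩
    · rw [commutatorElement_eq_one_iff_mul_comm.2 (Units.ext (emb_comm hij x.val y.val))]
      exact ⟨1, by simp⟩
  have hpow : ∀ x ∈ Subgroup.closure T', x ^ 3 = 1 := by
    intro x hx
    induction hx using Subgroup.closure_induction with
    | mem x hx => obtain ⟨i, y, hy, rfl⟩ := hx; rw [← map_pow, ← map_pow, h3 y hy, map_one, map_one]
    | one => simp
    | mul x y hx hy ihx ihy =>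
      obtain ⟨d, hd⟩ := mem_scalars_iff'.1 (hc' y hy x hx)
      rw [mul_pow_of_central (z := sc ι d) (sc_comm d) (by rw [← hd, commutatorElement_def]; group), ihx, ihy,
        ← map_pow]
      simp [hF d]
    | inv x _ ih => rw [inv_pow, ih, inv_one]
  obtain ⟨m, hm⟩ := NCore.es (H := H ⊔ Subgroup.closure T') (M := Subgroup.closure T') (r := 3)
    ⟨Nat.prime_three, hfull.irr.not_le_scalars hn, hc', fun x hx => by rw [hpow x hx]; exact one_mem _⟩ hfull le_rfl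
    le_sup_left (fun g hg => (sup_le hnorm.le_normalizer (normsG_self _).le_normalizer hg · |>.1))
    (le_sup_right.trans le_sup_left) hpow
    fun A hA hA' => hc.le_scalars hS (hA.trans (hI.trans IsoB_le_sim)) (hA'.mono le_sup_left)
  exact ⟨_, m, hI, hnorm, hm⟩

end general

/-- the alternatives in the unitary case -/
inductive UniCase {P : FP F} (q : ℕ) (S : PQ P (ι → F)) (H : Subgroup (GL ι F)) : Prop
  | c1s (W : Submodule F (ι → F)) : W ≠ ⊥ → Geo.IsTotallySingularFor S.B W → H ≤ Geo.subspaceStabilizer W →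
      UniCase q S H
  | c1n (W : Submodule F (ι → F)) : W ≠ ⊥ → Geo.IsNondegenerateOn S.B W → 2 * finrank F W < Fintype.card ι →
      H ≤ Geo.subspaceStabilizer W → UniCase q S H
  | c2n (t k : ℕ) (D : Fin t → Submodule F (ι → F)) : Geo.IsNondegenerateMDecomposition S.B k D →
      H ≤ Geo.decompositionStabilizer D → UniCase q S H
  | c2s (k : ℕ) (D : Fin 2 → Submodule F (ι → F)) : Geo.IsMDecomposition k D →
      (∀ i, Geo.IsTotallySingularFor S.B (D i)) → H ≤ Geo.decompositionStabilizer D → UniCase q S H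
  | c3 (r : ℕ) (K : Subalgebra F (Matrix ι ι F)) : r.Prime → Odd r → Geo.IsFieldSubalgebra r K →
      Geo.IsAdjointClosedFor S.B K → H ≤ Geo.subalgebraNormalizer K → UniCase q S H
  | c4 (n₁ n₂ : ℕ) (e : ι ≃ Fin n₁ × Fin n₂) (P : GL ι F) (f₁ : (Fin n₁ → F) → (Fin n₁ → F) → F)
      (f₂ : (Fin n₂ → F) → (Fin n₂ → F) → F) : 2 ≤ n₁ → n₁ < n₂ → Geo.IsUnitaryFormPow q f₁ →
      Geo.IsUnitaryFormPow q f₂ → Geo.IsTensorFormStructure (fun x : F => x ^ q) S.B f₁ f₂ e P →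
      H ≤ Geo.tensorProductSubgroup n₁ n₂ e P → UniCase q S H
  | c5u (F₀ : Subfield F) (r : ℕ) (P : GL ι F) : r.Prime → Odd r → Fintype.card F = Nat.card F₀ ^ r →
      Geo.IsFormRationalStructure S.B F₀ 1 P → H ≤ Geo.subfieldSubgroup F₀ P → UniCase q S H
  | c5o (F₀ : Subfield F) (P : GL ι F) : Odd q → Fintype.card F = Nat.card F₀ ^ 2 →
      Geo.IsFormRationalStructure S.B F₀ 1 P → H ≤ Geo.subfieldSubgroup F₀ P → UniCase q S H
  | c5s (F₀ : Subfield F) (P : GL ι F) (ζ : F) : Even (Fintype.card ι) → Fintype.card F = Nat.card F₀ ^ 2 → ζ ≠ 0 →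
      ζ + ζ ^ q = 0 → Geo.IsFormRationalStructure S.B F₀ ζ P →
      (∀ u : ι → F, (∀ i, u i ∈ F₀) → S.B (P.val *ᵥ u) (P.val *ᵥ u) = 0) →
      H ≤ Geo.subfieldSubgroup F₀ P → UniCase q S H
  | c6 (r : ℕ) (R : Subgroup (GL ι F)) (p e k : ℕ) : Geo.IsSymplecticTypeGroup r R →
      Geo.ActsAbsolutelyIrreducibly (Geo.matrixSet R) → R ≤ Geo.similarityGroup S.B → r ≠ p →
      Geo.IsMinimalFieldFor (Nat.card (Subgroup.center R)) p e F →
      ((Odd r ∧ Nat.card (Subgroup.center R) = r ∧ 1 ≤ k ∧ Nat.card R = r ^ (1 + 2 * k)) ∨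
       (r = 2 ∧ e = 2 ∧ Nat.card (Subgroup.center R) = 4 ∧ Nat.card R = 2 ^ (2 + 2 * k))) →
      Fintype.card ι = r ^ k → H ≤ Geo.subgroupNormalizer R → UniCase q S H
  | c7 (k t : ℕ) (e : ι ≃ (Fin t → Fin k)) (P : GL ι F) (f₁ : (Fin k → F) → (Fin k → F) → F) :
      3 ≤ k → 2 ≤ t → ¬ (q = 2 ∧ k = 3) → Geo.IsUnitaryFormPow q f₁ →
      Geo.IsTensorPowerFormStructure (fun x : F => x ^ q) S.B f₁ e P → H ≤ Geo.tensorWreathSubgroup k t e P →
      UniCase q S H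
  | res : Geo.InUnitaryResidualClass H → UniCase q S H

variable {q : ℕ} {hq : Fintype.card F = q ^ 2}

/-- the unitary form parameter -/
noncomputable abbrev UP (hq : Fintype.card F = q ^ 2) : FP F := FP.unit (frobQ hq : F →+* F) (pow_q_pow_q hq)

variable {S : PQ (UP hq) (ι → F)} {H : Subgroup (GL ι F)}

theorem UP_σ (x : F) : (UP hq).σ x = x ^ q := rfl

theorem UP_ε : (UP hq).ε = 1 := rfl

theorem UP_ne (hq : Fintype.card F = q ^ 2) : ∃ a, (UP hq).σ a ≠ a := exists_pow_q_ne hq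

theorem isUnitaryFormPow_ofG {G : Matrix κ κ F} (h : (G.map (UP hq).σ)ᵀ = G) (hd : G.det ≠ 0) :
    Geo.IsUnitaryFormPow q (ofG (UP hq).σ G) :=
  have := isUnitaryForm_ofG (σ := frobQ hq) (pow_q_pow_q hq) (exists_pow_q_ne hq) h hd
  ⟨this.add_left, this.smul_left, this.herm, this.nondegenerate⟩

theorem exists_orthonormal {k : ℕ} {G : Matrix (Fin k) (Fin k) F} (h : (G.map (UP hq).σ)ᵀ = G) (hd : G.det ≠ 0) :
    ∃ a : GL (Fin k) F, a.valᵀ * G * a.val.map (UP hq).σ = 1 := by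
  have hf := isUnitaryForm_ofG (σ := frobQ hq) (pow_q_pow_q hq) (exists_pow_q_ne hq) h hd
  obtain ⟨b, -, h1, h2, -⟩ := H7.exists_orthonormal_unit (exists_pow_q_ne hq) (unitPQ hf) k ⊤
    ((PQ.nondegOn_top _).2 (unitPQ_nondeg hf)) (by simp)
  have : (Matrix.of b) * G * (Matrix.of b)ᵀ.map (UP hq).σ = 1 := by
    ext i j
    have : ((Matrix.of b) * G * (Matrix.of b)ᵀ.map (UP hq).σ) i j = ofG (UP hq).σ G (b i) (b j) := by
      simp only [ofG_eq_sum, Matrix.mul_apply, Finset.sum_mul]; rw [Finset.sum_comm]; rfl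
    rw [this]
    by_cases hij : i = j
    · subst hij; rw [Matrix.one_apply_eq]; exact h1 i
    · rw [Matrix.one_apply_ne hij]; exact h2 i j hij
  refine ⟨Matrix.GeneralLinearGroup.mkOfDetNeZero (Matrix.of b)ᵀ fun h0 => ?_, this⟩
  have := congrArg Matrix.det this
  rw [Matrix.det_transpose] at h0
  simp [h0] at this

theorem UniCase.of_subCore (hS : S.Nondeg) (hn : 2 ≤ Fintype.card ι) (hH : Irr H) (hI : H ≤ IsoB S)
    {F₁ : Subfield F} {r : ℕ} {P' : GL ι F} {G : Matrix ι ι F} {ζ : F} (h : SubCore S H F₁ r P' G ζ) :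
    UniCase q S H := by
  have : Nonempty ι := Fintype.card_pos_iff.1 (by omega)
  have hμ := h.ratio hS
  rw [UP_ε, mul_one] at hμ
  have hζ := h.ne
  have hσζ := (UP hq).σ_ne_zero hζ
  have hμ1 : (UP hq).σ ζ / ζ * (UP hq).σ ((UP hq).σ ζ / ζ) = 1 := by rw [map_div₀, FP.σσ]; field_simp
  rcases h.prime.eq_two_or_odd' with rfl | hr
  swap
  · obtain ⟨ν, hν, hν0, hν'⟩ := hilbert90 (UP hq).σ (UP hq).σσ F₁ (fun x hx => map_mem_subfield _ _ hx) (by
      by_contra hc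
      push Not at hc
      exact Nat.not_even_iff_odd.2 hr (even_of_fixes (UP hq).σσ (UP_ne hq) h.card hc)) hμ hμ1
    obtain ⟨l, hl⟩ := exists_norm_eq hq (a := ζ / ν) (by rw [← UP_σ (hq := hq), map_div₀, hν']; field_simp)
    have hl0 : l ≠ 0 := by
      rintro rfl
      exact div_ne_zero hζ hν0 (by rw [← hl, zero_mul])
    have h' := h.scale hl0 one_ne_zero (by
      rw [UP_σ, hl, one_mul, div_div_cancel_left' hζ]; exact inv_mem hν)
    exact .c5u F₁ r _ h.prime hr h.card h'.rational h'.le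
  have hF₁ : ∀ x, x ∈ F₁ ↔ (UP hq).σ x = x := fun x => by
    rw [mem_subfield_iff, ← Nat.pow_left_injective two_ne_zero (hq.symm.trans h.card), UP_σ]
  rw [(hF₁ _).1 hμ] at hμ1
  have hrat : ∀ u : ι → F, (∀ i, u i ∈ F₁) → S.B (P'.val *ᵥ u) (P'.val *ᵥ u) = ofG (RingHom.id F) G u u := by
    intro u hu
    have := h.gram u u
    simp only [glEquiv_apply] at this
    simp only [this, ofG_eq_sum, (hF₁ _).1 (hu _), RingHom.id_apply]
  have hherm := h.gram.herm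
  rw [UP_ε, one_smul] at hherm
  have hG : (ζ • G)ᵀ = ((UP hq).σ ζ / ζ) • ζ • G := by
    rw [smul_smul, div_mul_cancel₀ _ hζ]
    conv_rhs => rw [← hherm, ← Matrix.transpose_smul, ← Matrix.map_smul' _ _ _ (map_mul _)]
    congr 1; ext i j; exact ((hF₁ _).1 (h.ovr i j)).symm
  have halt : Gᵀ = -G → (∀ i, G i i = 0) → ζ + ζ ^ q = 0 → UniCase q S H := fun h1 h2 h3 =>
    .c5s F₁ P' ζ (even_card_of_symplectic (isSymplecticForm_ofG h1 h2 (h.gram.det hS))) h.card hζ h3 h.rational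
      (fun u hu => by rw [hrat u hu, ofG_self_eq_zero h1 h2]) h.le
  by_cases h2 : (2 : F) = 0
  · have h3 : (UP hq).σ ζ / ζ = 1 := (mul_self_eq_one_iff.1 hμ1).elim id fun h => by rw [h]; linear_combination -h2
    rw [h3, one_smul, Matrix.transpose_smul, smul_right_inj hζ] at hG
    rw [div_eq_one_iff_eq hζ] at h3
    refine halt (by rw [hG, eq_neg_iff_add_eq_zero, ← two_smul F, h2, zero_smul]) ?_
      (by rw [← UP_σ (hq := hq), h3]; linear_combination ζ * h2)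
    refine SimIrr.diag h2 hn hG fun W hW => ?_
    rcases hH (W.map (glEquiv P').toLinearMap) (by
      rintro g hg _ ⟨v, hv, rfl⟩
      obtain ⟨c, hc⟩ := (mem_subfieldSubgroup_iff _ _ _).1 (h.le hg)
      have h4 := h.gram.iso.1 (hI hg)
      rw [tr_glEquiv, cj_coe] at h4
      rw [cj_coe] at hc
      have h5 : ((c : F) • (P'⁻¹ * g * P'⁻¹⁻¹).val).map (UP hq).σ = (c : F) • (P'⁻¹ * g * P'⁻¹⁻¹).val := by
        ext i j; exact (hF₁ _).1 (hc i j)
      have := hW (sc ι c * (P'⁻¹ * g * P'⁻¹⁻¹)) (c * (UP hq).σ c) (by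
        rw [RingHom.coe_id, Matrix.map_id, Units.val_mul, coe_sc, Matrix.smul_mul, one_mul]
        conv_lhs => rw [← h5]; lhs; rw [h5]
        rw [Matrix.map_smul' _ _ _ (map_mul _), Matrix.transpose_smul, Matrix.smul_mul, Matrix.smul_mul,
          Matrix.mul_smul, h4, smul_smul]) v hv
      refine ⟨_, W.smul_mem (c⁻¹ : Fˣ).val this, ?_⟩
      simp [Matrix.smul_mulVec, Matrix.mulVec_smul, ← mul_assoc]) with h0 | h0
    · exact Or.inl (Submodule.map_eq_bot_iff.1 h0)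
    · exact Or.inr ((Submodule.map_eq_top_iff).1 h0)
  · rcases mul_self_eq_one_iff.1 hμ1 with h3 | h3
    · rw [div_eq_one_iff_eq hζ] at h3
      have h' := h.change one_ne_zero (div_mem (one_mem _) ((hF₁ _).2 h3))
      refine .c5o F₁ P' ?_ h.card h'.rational h.le
      have := odd_card_iff.2 h2
      rw [hq, Nat.odd_pow_iff two_ne_zero] at this; exact this
    · rw [h3, Matrix.transpose_smul, smul_comm, smul_right_inj hζ, neg_smul, one_smul] at hG
      rw [div_eq_iff hζ] at h3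
      exact halt hG (diag_eq_zero_of_skew h2 hG) (by rw [← UP_σ (hq := hq), h3]; ring)

theorem UniCase.of_group (hS : S.Nondeg) (hn : 2 ≤ Fintype.card ι) (hI : H ≤ IsoB S) (hH : Irr H)
    {R : Subgroup (GL ι F)} (hR : Full (Geo.matrixSet R)) (hN : NormsG H R) (hRI : R ≤ IsoB S) {F₀ : Subfield F}
    (hF : F₀ ≠ ⊤) (htr : ∀ s ∈ Geo.matrixSet R, s.trace ∈ F₀) : UniCase q S H := by
  have : Nonempty ι := Fintype.card_pos_iff.1 (by omega)
  obtain ⟨F₁, r, P', G, ζ, -, h⟩ := exists_subCore_of_group hS hR hN hRI hF htr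
  exact .of_subCore hS hn hH hI h

theorem UniCase.of_bilin (hS : S.Nondeg) (hn : 2 ≤ Fintype.card ι) (hI : H ≤ IsoB S) (hH : Irr H)
    {R : Subgroup (GL ι F)} (hR : Full (Geo.matrixSet R)) (hN : NormsG H R) (hRI : R ≤ IsoB S)
    {f : (ι → F) → (ι → F) → F} (hf : Geo.IsBilinearForm f) (hf' : Geo.IsNondegenerateForm f)
    (hfix : Geo.FixesForm (Geo.matrixSet R) f) : UniCase q S H :=
  .of_group hS hn hI hH hR hN hRI (fixSub_ne_top _ (UP_ne hq)) (trace_mem_fixSub (UP hq).σσ (sesq_of_bilinear hf) hf'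
    (sesq_B S) (nondeg_B hS) hfix (fixesForm_of_le hRI))

theorem UniCase.of_pcore (hS : S.Nondeg) (hc : NoComm S H) {k t : ℕ} (hk : 3 ≤ k)
    {Φ : ((Fin t → Fin k) → F) ≃ₗ[F] (ι → F)} {G₁ : Matrix (Fin k) (Fin k) F} {c ε₁ : F} (h : PCore S H Φ G₁ c ε₁) :
    UniCase q S H := by
  classical
  have : Nonempty (Fin k) := ⟨⟨0, by omega⟩⟩
  obtain ⟨ν, hν, hν'⟩ := exists_herm_smul (UP hq).σσ (UP_ne hq) (ne_zero_of_det h.det) h.herm
  have hd : (ν • G₁).det ≠ 0 := by simp [hν, h.det]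
  by_cases hex : q = 2 ∧ k = 3
  swap
  · obtain ⟨e, P', rfl⟩ := exists_fr' Φ
    exact .c7 k t e P' _ hk h.two_le_t hex (isUnitaryFormPow_ofG hν' hd) (h.powerForm hν) h.le_wreath
  obtain ⟨rfl, rfl⟩ := hex
  have hn : 2 ≤ Fintype.card ι := by
    rw [h.card]; exact (Nat.lt_pow_self (by decide)).le.trans' h.two_le_t
  have : Nonempty ι := Fintype.card_pos_iff.1 (by omega)
  obtain ⟨a, ha⟩ := exists_orthonormal hν' hd
  obtain ⟨h1, h2⟩ := T27_prop hq (σ := (UP hq).σ) (fun _ => rfl) (G := G₁) (a := a) (inv_ne_zero hν) (by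
    rw [← ha, Matrix.mul_smul, Matrix.smul_mul, smul_smul, inv_mul_cancel₀ hν, one_smul])
  have hF : ∀ c : Fˣ, c ^ 3 = 1 := fun c => by
    have := pow_card_eq_one (x := c)
    rwa [Fintype.card_units, hq] at this
  obtain ⟨R, m, hRI, hN, hR⟩ := h.exists_es hS hc hn h2 (fun x hx => hx.1) (fun x hx => hx.2.2) h1 hF
    fun a m hm ha x hx => T27_conj hm ha hx
  obtain ⟨ζ, hζ1, hζ3, x, hx, y, hy, hxy⟩ := hR.root
  have hζ : sc ι ζ ∈ R := by
    rw [← mul_inv_eq_iff_eq_mul] at hxy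
    exact hxy ▸ mul_mem (mul_mem hx hy) (inv_mem (mul_mem hy hx))
  have := Fact.mk Nat.prime_three
  have hord := orderOf_eq_prime hζ3 hζ1
  have hz : ∀ c : Fˣ, sc ι c ∈ R ↔ c ^ 3 = 1 := fun c => ⟨fun _ => hF c, fun _ => by
    have : Subgroup.zpowers ζ = ⊤ := Subgroup.eq_top_of_card_eq _ (by
      rw [Nat.card_zpowers, hord, Nat.card_eq_fintype_card, Fintype.card_units, hq]; rfl)
    obtain ⟨j, rfl⟩ : c ∈ Subgroup.zpowers ζ := this ▸ Subgroup.mem_top c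
    rw [map_zpow]; exact zpow_mem hζ j⟩
  obtain ⟨ζ', hζ'⟩ := hR.exists_primitiveRoot
  have hcz := hR.card_center_of hz hζ' (by decide)
  have h2 : CharP F 2 := (CharP.charP_iff_prime_eq_zero Nat.prime_two).2 (H7.two_eq_zero_of_card_four hq)
  refine .c6 3 R 2 2 m hR.symp hR.full.absIrr (hRI.trans IsoB_le_sim) (by decide)
    ⟨Nat.prime_two, h2, hq, by rw [hcz]; decide, fun d h0 hd => ?_⟩
    (Or.inl ⟨by decide, hcz, hR.one_le, by rw [hR.card, hcz, pow_add, pow_one]⟩) hR.card_ι hN.le_normalizer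
  obtain rfl : d = 1 := by omega
  rw [hcz]; decide

/-- the quaternion form of the `2 × 2` matrices -/
def quatSet (σ : F →+* F) : Set (Matrix (Fin 2) (Fin 2) F) := {X | adjG σ 1 X = X.trace • 1 - X}

theorem adjG_one (σ : F →+* F) (X : Matrix κ κ F) : adjG σ 1 X = Xᵀ.map σ := by simp [adjG]

theorem full_quatSet {σ : F →+* F} (hσ : ∀ a, σ (σ a) = a) (hne : ∃ a, σ a ≠ a) : Full (quatSet σ) := by
  obtain ⟨θ, hθ⟩ := hne
  have hθ' := sub_ne_zero.2 hθ
  have h1 : ∀ a b, !![a, b; -σ b, σ a] ∈ Submodule.span F (quatSet σ) := fun a b => Submodule.subset_span (by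
    rw [quatSet, Set.mem_setOf_eq, adjG_one]
    ext i j; fin_cases i <;> fin_cases j <;> simp [hσ, Matrix.trace_fin_two])
  have h2 : ∀ a b c d, (σ θ - θ)⁻¹ • ((σ θ * a - θ * d) • !![1, 0; -σ 0, σ 1] + (d - a) • !![θ, 0; -σ 0, σ θ] +
      (σ θ * b + θ * c) • !![0, 1; -σ 1, σ 0] - (b + c) • !![0, θ; -σ θ, σ 0]) ∈ Submodule.span F (quatSet σ) :=
    fun a b c d => Submodule.smul_mem _ _ (sub_mem (add_mem (add_mem (Submodule.smul_mem _ _ (h1 _ _))
      (Submodule.smul_mem _ _ (h1 _ _))) (Submodule.smul_mem _ _ (h1 _ _))) (Submodule.smul_mem _ _ (h1 _ _)))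
  rw [Full, eq_top_iff]
  intro X _
  convert h2 (X 0 0) (X 0 1) (X 1 0) (X 1 1) using 1
  ext i j; fin_cases i <;> fin_cases j <;> simp <;> field_simp <;> ring

theorem UniCase.of_tcore (hS : S.Nondeg) (hI : H ≤ IsoB S) (hH : Irr H) (hc : NoComm S H) {k l : ℕ} (hk : 2 ≤ k)
    (hl : 2 ≤ l) {Φ : (Fin k × Fin l → F) ≃ₗ[F] (ι → F)} {ε₁ ε₂ : F} (h : TCore S H Φ 1 1 ε₁ ε₂) : UniCase q S H := by
  have key : ∀ {k l : ℕ}, 2 ≤ k → k < l → ∀ {Φ : (Fin k × Fin l → F) ≃ₗ[F] (ι → F)} {ε₁ ε₂ : F},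
      TCore S H Φ 1 1 ε₁ ε₂ → UniCase q S H := fun {k l} hk hl Φ _ _ h => by
    obtain ⟨e, P', rfl⟩ := exists_fr' Φ
    exact .c4 k l e P' _ _ hk hl (isUnitaryFormPow_ofG (by simp) (by simp)) (isUnitaryFormPow_ofG (by simp) (by simp))
      (h.tensorForm one_ne_zero one_ne_zero) h.le_tensor
  rcases lt_trichotomy k l with hkl | rfl | hkl
  · exact key hk hkl h
  swap
  · exact key hl hkl h.swap
  rcases hk.lt_or_eq with hk | rfl
  · exact .of_pcore hS hc hk (TCore.pcore hS hH hI hl one_ne_zero (by simpa using h))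
  have hn : Fintype.card ι = 4 := by simpa using card_eq_of_frame Φ
  have : Nonempty ι := Fintype.card_pos_iff.1 (by omega)
  have hσ := (UP hq).σσ
  have hA1 : (1 : Matrix (Fin 2) (Fin 2) F) ∈ quatSet (UP hq).σ := by
    rw [quatSet, Set.mem_setOf_eq, adjG_one]; simp [two_smul]
  have hAm : ∀ x ∈ quatSet (UP hq).σ, ∀ y ∈ quatSet (UP hq).σ, x * y ∈ quatSet (UP hq).σ := fun x hx y hy => by
    rw [quatSet, Set.mem_setOf_eq] at *
    rw [adjG_mul hσ (by simp), hx, hy]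
    ext i j; fin_cases i <;> fin_cases j <;> simp [Matrix.trace_fin_two, Matrix.mul_apply] <;> ring
  have hAt : ∀ x ∈ quatSet (UP hq).σ, (UP hq).σ x.trace = x.trace := fun x hx => by
    have := congrArg Matrix.trace hx
    rw [adjG_one, ← AddMonoidHom.map_trace, Matrix.trace_transpose] at this
    rw [this]; simp; ring
  have hAa : ∀ x ∈ quatSet (UP hq).σ, adjG (UP hq).σ 1 x ∈ quatSet (UP hq).σ := fun x hx => by
    have h1 := hAt x hx
    rw [quatSet, Set.mem_setOf_eq] at *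
    conv_rhs => rw [hx]
    rw [adjG_one, adjG_one, ← Matrix.transpose_map, Matrix.transpose_transpose, map_map_invol hσ]
    simp [mul_two]
  have hAc : ∀ (a : GL (Fin 2) F) (c : F), a.valᵀ * 1 * a.val.map (UP hq).σ = c • 1 → ∀ x ∈ quatSet (UP hq).σ,
      cj a x ∈ quatSet (UP hq).σ := fun a c ha x hx => by
    rw [quatSet, Set.mem_setOf_eq] at *
    rw [adjG_cj_of_sim hσ (by simp) ha, hx, trace_cj, map_sub, map_smul, map_one]
  obtain ⟨F₁, r, P', G, ζ, -, h'⟩ := exists_subCore (H := H) hS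
    (T := (tr Φ).symm '' {Z | ∃ x ∈ quatSet (UP hq).σ, ∃ y ∈ quatSet (UP hq).σ, Z = x ⊗ₖ y})
    ⟨_, ⟨1, hA1, 1, hA1, rfl⟩, by simp⟩ (by
      rintro _ ⟨_, ⟨x, hx, y, hy, rfl⟩, rfl⟩ _ ⟨_, ⟨x', hx', y', hy', rfl⟩, rfl⟩
      exact ⟨_, ⟨_, hAm x hx x' hx', _, hAm y hy y' hy', rfl⟩, by rw [← map_mul, Matrix.mul_kronecker_mul]⟩)
    (((full_quatSet hσ (UP_ne hq)).kron (full_quatSet hσ (UP_ne hq))).map _) (by
      rintro g hg _ ⟨_, ⟨x, hx, y, hy, rfl⟩, rfl⟩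
      obtain ⟨a, b, c, -, h1, h2, h3⟩ := h.kron g hg
      refine ⟨_, ⟨_, hAc a _ h2 x hx, _, hAc b _ h3 y hy, rfl⟩, ?_⟩
      rw [AlgEquiv.symm_apply_eq, tr_cj, AlgEquiv.apply_symm_apply, eq_comm, cj_eq_iff, coe_trG, h1,
        ← Matrix.mul_kronecker_mul, ← Matrix.mul_kronecker_mul, cj_mul_self, cj_mul_self]) (by
      rintro _ ⟨_, ⟨x, hx, y, hy, rfl⟩, rfl⟩
      refine ⟨_, ⟨_, hAa x hx, _, hAa y hy, rfl⟩, ?_⟩
      rw [AlgEquiv.symm_apply_eq, h.gram.tr_adj hS, AlgEquiv.apply_symm_apply, Matrix.one_kronecker_one, adjG_one,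
        adjG_one, adjG_one, kron_transpose, kron_map])
    (fixSub_ne_top _ (UP_ne hq)) (by
      rintro _ ⟨_, ⟨x, hx, y, hy, rfl⟩, rfl⟩
      rw [← trace_tr Φ, AlgEquiv.apply_symm_apply, Matrix.trace_kronecker]
      exact mul_mem (hAt x hx) (hAt y hy))
  exact .of_subCore hS (by omega) hH hI h'

theorem TCore.exists_one (hI : H ≤ IsoB S) {k l : ℕ} (hk : 2 ≤ k) (hl : 2 ≤ l) {Φ : (Fin k × Fin l → F) ≃ₗ[F] (ι → F)}
    {G₁ : Matrix (Fin k) (Fin k) F} {G₂ : Matrix (Fin l) (Fin l) F} {ε₁ ε₂ : F} (h : TCore S H Φ G₁ G₂ ε₁ ε₂) :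
    ∃ (Φ : (Fin k × Fin l → F) ≃ₗ[F] (ι → F)) (ε₁ ε₂ : F), TCore S H Φ 1 1 ε₁ ε₂ := by
  have : Nonempty (Fin k) := ⟨⟨0, by omega⟩⟩
  have : Nonempty (Fin l) := ⟨⟨0, by omega⟩⟩
  obtain ⟨ν, hν, hν'⟩ := exists_herm_smul (UP hq).σσ (UP_ne hq) (ne_zero_of_det h.det₁) h.herm₁
  obtain ⟨ε₁, ε₂, h1⟩ := h.rescale hI hν
  obtain ⟨a, ha⟩ := exists_orthonormal hν' h1.det₁
  obtain ⟨Φ, ε₁, ε₂, h2⟩ := h1.swap.gl₂ hI a
  rw [ha] at h2
  obtain rfl : ε₂ = 1 := by simpa using (congrFun (congrFun h2.herm₂ ⟨0, by omega⟩) ⟨0, by omega⟩).symm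
  obtain rfl : ε₁ = 1 := by simpa [UP_ε] using h2.mul
  obtain ⟨b, hb⟩ := exists_orthonormal (by simpa using h2.herm₁) h2.det₁
  obtain ⟨Φ, ε₁, ε₂, h3⟩ := h2.swap.gl₂ hI b
  exact ⟨Φ, ε₁, ε₂, hb ▸ h3⟩

theorem UniCase.of_es (hS : S.Nondeg) (hn : 2 ≤ Fintype.card ι) (hI : H ≤ IsoB S) (hH : Irr H)
    {R : Subgroup (GL ι F)} {r m : ℕ} (h : ES H R r m) (hz : ∀ c : Fˣ, sc ι c ∈ R ↔ c ^ (r * Nat.gcd 2 r) = 1) :
    UniCase q S H := by
  have : Nonempty ι := Fintype.card_pos_iff.1 (by omega)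
  obtain ⟨z, hz', hcz, ⟨ζ, hζ⟩, hcase⟩ := h.center_cases hz
  have hz0 : z ≠ 0 := by rw [← hcz]; exact Nat.card_pos.ne'
  rcases minimalField_or hζ hz0 with ⟨p, e, hmin⟩ | ⟨F₀, hF, hF'⟩
  swap
  · obtain ⟨F₁, r, P', G, ζ, -, h'⟩ := exists_subCore hS (one_mem_matrixSet R) (mul_mem_matrixSet R) h.full
      h.norms.matrixSet (h.adjC hS hI hz) hF (h.trace_mem fun c hc => hF' _ (by
        rw [← Units.val_pow_eq_pow_val, (hz' c).1 hc]; rfl))
    exact .of_subCore hS hn hH hI h'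
  have hne := h.ne_char hmin.2.1
  refine .c6 r R p e m h.symp h.full.absIrr (h.le.trans (sup_le_sim hI)) hne (hcz ▸ hmin) ?_ h.card_ι
    h.norms.le_normalizer
  rcases hcase with ⟨hodd, rfl⟩ | ⟨rfl, rfl⟩ | ⟨rfl, rfl, hsq⟩
  · exact Or.inl ⟨hodd, hcz, h.one_le, by rw [h.card, hcz, pow_add, pow_one]⟩
  · refine Or.inr ⟨rfl, ?_, hcz, by rw [h.card, hcz, pow_add]; rfl⟩
    obtain ⟨hp, hc, hcard, -, hmin⟩ := hmin
    obtain ⟨p', k, hp', hc', hk, rfl⟩ := exists_prime_pow_of_card_sq hq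
    obtain rfl : p = p' := CharP.eq F hc hc'
    rw [hq, ← pow_mul] at hcard
    obtain rfl := Nat.pow_right_injective hp.two_le hcard
    have : ¬ 2 < k * 2 := fun h2 => hmin 2 two_pos h2 (by
      obtain ⟨k, rfl⟩ := hp.odd_of_ne_two hne.symm
      exact ⟨k * k + k, by ring_nf; omega⟩)
    omega
  · refine absurd (FiniteField.isSquare_neg_one_iff.2 ?_) hsq
    rw [hq, Nat.pow_mod]
    have : q % 4 < 4 := Nat.mod_lt _ (by decide)
    interval_cases q % 4 <;> decide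

theorem uniCase (hS : S.Nondeg) (hn : 2 ≤ Fintype.card ι) (hI : H ≤ IsoB S) : UniCase q S H := by
  have : Nonempty ι := Fintype.card_pos_iff.1 (by omega)
  by_cases hH : Irr H
  swap
  · obtain ⟨W, h1, h2, h3, h4⟩ := exists_min_invariant hH
    rcases nondeg_or_ti hI h3 h4 with h5 | h5
    · rcases nondeg_small_or hS hI h1 h2 h3 h5 with ⟨W, h6, h7, h8, h9⟩ | ⟨k, h6, h7⟩
      · exact .c1n W h6 h7 h8 h9
      · exact .c2n 2 k _ h6 h7
    · exact .c1s W h1 h5 (le_subspaceStabilizer h3)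
  by_cases hc : NoComm S H
  swap
  · rw [NoComm] at hc
    push Not at hc
    obtain ⟨C, h1, h2, h3, h4⟩ := hc
    rcases comm_exit hS hH hI h1 h2 h3 h4 with ⟨t, e, he, he'⟩ | ⟨e, he, he'⟩ | ⟨r, K, hr, hK, hK1, hK2⟩
    · obtain ⟨m, hm⟩ := he.nondeg hS hH he'
      exact .c2n t m _ hm he.le_stab
    · obtain ⟨m, hm⟩ := he.isMDecomposition hH
      exact .c2s m _ hm (ti_of_adj hS (he.idem 0) he') he.le_stab
    · exact .c3 r K hr (odd_of_unitary hS (UP_ne hq) hr hK hK2) hK (hK2.geo hS) hK1.le_subalgebraNormalizer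
  rcases prim_or_tcore hS hH hI hc with hP | ⟨k, l, hk, hl, Φ, G₁, G₂, ε₁, ε₂, h⟩
  swap
  · obtain ⟨Φ, ε₁, ε₂, h⟩ := h.exists_one hI hk hl
    exact .of_tcore hS hI hH hc hk hl h
  rcases exists_core (hH.not_le_scalars hn) with ⟨M, r, hM⟩ | ⟨P, hQ⟩
  · obtain ⟨R, m, hR, hz⟩ := hM.exists_es hP
    exact .of_es hS hn hI hH hR hz
  by_cases hnP : NormsG H P
  · have hfull := (hP P (hQ.le.trans le_sup_left) hnP).resolve_left hQ.not_le
    have hPI := hQ.le.trans hI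
    by_contra hcon
    refine hcon (.res ⟨P, hQ.residual hnP hfull fun F₀ hF htr => hcon (.of_group hS hn hI hH hfull hnP hPI hF ?_),
      ?_, ?_⟩)
    · rintro _ ⟨x, hx, rfl⟩; exact htr x hx
    · rintro ⟨Q, hQ', hfix⟩
      exact hcon (.of_bilin hS hn hI hH hfull hnP hPI hQ'.polar_bilinear hQ'.nondegenerate (fixesForm_polar hfix))
    · rintro ⟨f, hf, hfix⟩
      exact hcon (.of_bilin hS hn hI hH hfull hnP hPI hf.bilinear hf.nondegenerate hfix)
  · obtain ⟨k, t, Φ, P₁, hW⟩ := hQ.exists_wcore hP hnP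
    rcases hW.two_le_k.lt_or_eq with hk | rfl
    · obtain ⟨G₁, c, ε₁, h, -⟩ := hW.exists_pcore hS hI
      exact .of_pcore hS hc hk h
    · have := hW.two_le_t
      rcases pull_sympl_or_symm Φ.symm (ptJ_sympl_or_symm (F := F) (t := t) (by omega)) with hf | ⟨-, hf⟩ <;>
        exact .of_bilin hS hn hI hH hW.prodQ_full hW.prodQ_norms (hW.prodQ_le.trans hI) hf.bilinear hf.nondegenerate
          hW.fixes_J

end Cfsg.Agent.Asch
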