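import Cfsg.Agent.Asch.Sp
import Cfsg.Agent.Asch.Uni
import Cfsg.Agent.H7.Contain2

/-!
Auxiliary results for the orthogonal case.
-/

set_option autoImplicit false
set_option linter.unusedSectionVars false
set_option maxHeartbeats 400000

namespace Cfsg.Agent.Asch

open scoped MatrixGroups Matrix Kronecker commutatorElement
open Form Module

variable {ι : Type} [Fintype ι] [DecidableEq ι] {F : Type*} [Field F] [Fintype F]
variable {κ : Type} [Fintype κ] [DecidableEq κ] {μ : Type} [Fintype μ] [DecidableEq μ]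

/-! ### symmetric matrices over a finite field of odd order -/

theorem exists_binary (h2 : (2 : F) ≠ 0) {a b : F} (ha : a ≠ 0) (hb : b ≠ 0) (c : F) :
    ∃ x y : F, a * x ^ 2 + b * y ^ 2 = c := by
  have hodd := Nat.odd_iff.1 (odd_card_iff.2 h2)
  obtain ⟨x, y, h⟩ := FiniteField.exists_root_sum_quadratic (R := F)
    (f := Polynomial.C a * Polynomial.X ^ 2) (g := Polynomial.C b * Polynomial.X ^ 2 - Polynomial.C c)
    (Polynomial.degree_C_mul_X_pow 2 ha) (by
      rw [Polynomial.degree_sub_C (by rw [Polynomial.degree_C_mul_X_pow 2 hb]; decide),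
        Polynomial.degree_C_mul_X_pow 2 hb]; rfl) hodd
  exact ⟨x, y, by simp at h; linear_combination h⟩

theorem exists_orth_family {V : Type*} [AddCommGroup V] [Module F V] [FiniteDimensional F V] (h2 : (2 : F) ≠ 0)
    (S : PQ (FP.orth F) V) {ν : F} (hν : ν ≠ 0) (k : ℕ) (U : Submodule F V) (hU : S.NondegOn U)
    (hk : finrank F U = k + 1) : ∃ b : Fin (k + 1) → V, (∀ i, b i ∈ U) ∧ (∀ i, i ≠ Fin.last k → S.B (b i) (b i) = ν) ∧
      S.B (b (Fin.last k)) (b (Fin.last k)) ≠ 0 ∧ ∀ i j, i ≠ j → S.B (b i) (b j) = 0 := by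
  obtain ⟨b, hb1, hb2, hb3, -⟩ := H7.exists_orthogonal_family S (fun x => S.B x x ≠ 0) (fun _ h => h)
    (fun _ => H7.exists_B_self_ne_orth h2 S) _ U hU hk
  induction k generalizing U with
  | zero => exact ⟨b, hb1, fun i hi => absurd (Subsingleton.elim (α := Fin 1) _ _) hi, hb2 _, hb3⟩
  | succ k ih =>
    obtain ⟨x, y, hxy⟩ := exists_binary h2 (hb2 0) (hb2 1) ν
    have hv : x • b 0 + y • b 1 ∈ U := add_mem (U.smul_mem _ (hb1 0)) (U.smul_mem _ (hb1 1))
    have hvv : S.B (x • b 0 + y • b 1) (x • b 0 + y • b 1) = ν := by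
      simp [hb3 0 1 Fin.zero_ne_one, hb3 1 0 Fin.zero_ne_one.symm]; linear_combination hxy
    generalize x • b 0 + y • b 1 = v at hv hvv
    have hv0 : v ≠ 0 := by rintro rfl; simp [hν.symm] at hvv
    have h0 := S.nondegOn_span_singleton (hvv ▸ hν : S.B v v ≠ 0)
    have h1 := h0.inf_perp hU ((Submodule.span_singleton_le_iff_mem _ _).2 hv)
    have h3 : finrank F (U ⊓ S.perp (F ∙ v) : Submodule F V) = k + 1 := by
      have h3 := Submodule.finrank_sup_add_finrank_inf_eq (F ∙ v) (U ⊓ S.perp (F ∙ v))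
      rw [h1.2, (h0.isCompl.disjoint.mono_right inf_le_right).eq_bot, finrank_bot, finrank_span_singleton hv0,
        hk] at h3
      omega
    obtain ⟨c, hc1, hc2, hc3, -⟩ := H7.exists_orthogonal_family S (fun x => S.B x x ≠ 0) (fun _ h => h)
      (fun _ => H7.exists_B_self_ne_orth h2 S) _ _ h1.1 h3
    obtain ⟨c, hc1, hc2, hc3, hc4⟩ := ih _ h1.1 h3 c hc1 hc2 hc3
    have hcv : ∀ i, S.B (c i) v = 0 := fun i => S.mem_perp_span_singleton.1 (hc1 i).2
    refine ⟨Fin.cons v c, ?_, ?_, hc3, ?_⟩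
    · intro i; refine Fin.cases hv (fun i => (hc1 i).1) i
    · intro i; refine Fin.cases (fun _ => hvv) (fun i hi => hc2 i ?_) i
      rintro rfl; exact hi rfl
    · intro i j
      refine Fin.cases ?_ (fun i => ?_) i <;> refine Fin.cases ?_ (fun j => ?_) j
      · simp
      · intro _; exact S.B_comm_zero (hcv j)
      · intro _; exact hcv i
      · intro h; exact hc4 i j (fun h' => h (by rw [h']))

theorem of_mul_transpose (σ : F →+* F) (G : Matrix ι ι F) (b : κ → ι → F) (i j : κ) :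
    (Matrix.of b * G * (Matrix.of b)ᵀ.map σ) i j = ofG σ G (b i) (b j) := by
  simp only [ofG_eq_sum, Matrix.mul_apply, Finset.sum_mul]; rw [Finset.sum_comm]; rfl

theorem exists_diag (h2 : (2 : F) ≠ 0) {k : ℕ} {G : Matrix (Fin (k + 1)) (Fin (k + 1)) F} (hG : Gᵀ = G)
    (hd : G.det ≠ 0) : ∃ (a : GL (Fin (k + 1)) F) (d : F), d ≠ 0 ∧
      a.valᵀ * G * a.val = Matrix.diagonal (Function.update 1 (Fin.last k) d) := by
  have hf := isSymmetricForm_ofG hG hd
  obtain ⟨b, -, h1, h3, h4⟩ := exists_orth_family h2 (H7.symmPQ h2 hf) one_ne_zero k ⊤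
    ((PQ.nondegOn_top _).2 (H7.symmPQ_nondeg h2 hf)) (by simp)
  have : Matrix.of b * G * (Matrix.of b)ᵀ = Matrix.diagonal (Function.update 1 (Fin.last k)
      (ofG (RingHom.id F) G (b (Fin.last k)) (b (Fin.last k)))) := by
    ext i j
    rw [← Matrix.map_id (Matrix.of b)ᵀ, ← RingHom.coe_id, of_mul_transpose]
    by_cases hij : i = j
    · subst hij
      by_cases hi : i = Fin.last k
      · subst hi; simp
      · simpa [hi] using h1 i hi
    · rw [Matrix.diagonal_apply_ne _ hij]; exact h4 i j hij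
  refine ⟨Matrix.GeneralLinearGroup.mkOfDetNeZero (Matrix.of b)ᵀ fun h0 => ?_, _, h3, this⟩
  have := congrArg Matrix.det this
  rw [Matrix.det_transpose] at h0
  rw [Matrix.det_diagonal, Finset.prod_update_of_mem (Finset.mem_univ _)] at this
  simp only [Matrix.det_mul, h0, zero_mul] at this
  exact h3 (by simpa using this.symm)

/-- symmetric matrices with the same discriminant are congruent -/
theorem exists_congr (h2 : (2 : F) ≠ 0) {k : ℕ} {G G' : Matrix (Fin k) (Fin k) F} (hG : Gᵀ = G) (hG' : G'ᵀ = G')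
    (hd : G.det ≠ 0) (hd' : G'.det ≠ 0) (h : IsSquare (G.det * G'.det)) :
    ∃ a : GL (Fin k) F, a.valᵀ * G * a.val = G' := by
  rcases k with _ | k
  · exact ⟨1, Subsingleton.elim _ _⟩
  obtain ⟨a, d, hd0, ha⟩ := exists_diag h2 hG hd
  obtain ⟨a', d', hd0', ha'⟩ := exists_diag h2 hG' hd'
  have h1 := congrArg Matrix.det ha
  have h3 := congrArg Matrix.det ha'
  simp only [Matrix.det_mul, Matrix.det_transpose, Matrix.det_diagonal,
    Finset.prod_update_of_mem (Finset.mem_univ _), Pi.one_apply, Finset.prod_const_one, mul_one] at h1 h3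
  obtain ⟨s, hs⟩ := h
  have h4 : (s * a.val.det * a'.val.det / d) * d * (s * a.val.det * a'.val.det / d) = d' := by
    field_simp
    linear_combination a'.val.det ^ 2 * G'.det * h1 + d * h3 - a.val.det ^ 2 * a'.val.det ^ 2 * hs
  generalize s * a.val.det * a'.val.det / d = s at h4
  have hs0 : s ≠ 0 := by rintro rfl; simp [hd0'.symm] at h4
  let c : GL (Fin (k + 1)) F := Matrix.GeneralLinearGroup.mkOfDetNeZero
    (Matrix.diagonal (Function.update 1 (Fin.last k) s)) (by simp [Finset.prod_update_of_mem, hs0])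
  refine ⟨a * c * a'⁻¹, ?_⟩
  have h5 : c.valᵀ * (a.valᵀ * G * a.val) * c.val = a'.valᵀ * G' * a'.val := by
    rw [ha, ha']
    change (Matrix.diagonal _)ᵀ * _ * Matrix.diagonal _ = _
    rw [Matrix.diagonal_transpose, Matrix.diagonal_mul_diagonal, Matrix.diagonal_mul_diagonal]
    congr 1; funext i
    by_cases hi : i = Fin.last k
    · subst hi; simpa using h4
    · simp [hi]
  calc _ = (a'⁻¹).valᵀ * (c.valᵀ * (a.valᵀ * G * a.val) * c.val) * (a'⁻¹).val := by
        simp only [Units.val_mul, Matrix.transpose_mul, mul_assoc]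
    _ = G' := by
        rw [h5, ← mul_assoc, ← mul_assoc, ← Matrix.transpose_mul]; simp [mul_assoc]

/-- symmetric matrices of the same odd size are similar -/
theorem exists_similar (h2 : (2 : F) ≠ 0) {k : ℕ} (hk : Odd k) {G G' : Matrix (Fin k) (Fin k) F} (hG : Gᵀ = G)
    (hG' : G'ᵀ = G') (hd : G.det ≠ 0) (hd' : G'.det ≠ 0) :
    ∃ (a : GL (Fin k) F) (d : F), d ≠ 0 ∧ a.valᵀ * G * a.val = d • G' := by
  obtain ⟨j, rfl⟩ := hk
  have h0 := mul_ne_zero hd hd'
  obtain ⟨a, ha⟩ := exists_congr h2 hG (G' := (G.det * G'.det) • G') (by simp [hG']) hd (by simp [hd, hd'])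
    ⟨(G.det * G'.det) ^ (j + 1), by simp; ring⟩
  exact ⟨a, _, h0, ha⟩

/-! ### factors whose similarity group normalises a commutative algebra -/

/-- the similarity group of `G` normalises a non-scalar commutative set -/
def BadFactor (σ : F →+* F) (G : Matrix κ κ F) : Prop :=
  ∃ T : Set (Matrix κ κ F), (∀ (a : GL κ F) (m : F), a.valᵀ * G * a.val.map σ = m • G → ∀ x ∈ T, cj a x ∈ T) ∧
    (∀ x ∈ T, ∀ y ∈ T, x * y = y * x) ∧ (∀ x ∈ T, adjG σ G x ∈ T) ∧ ∃ x ∈ T, ¬ IsSc x

section general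
variable {P : FP F} {S : PQ P (ι → F)} {H : Subgroup (GL ι F)}

theorem PCore.not_bad (hS : S.Nondeg) (hc : NoComm S H) {k t : ℕ} {Φ : ((Fin t → Fin k) → F) ≃ₗ[F] (ι → F)}
    {G₁ : Matrix (Fin k) (Fin k) F} {c ε₁ : F} (h : PCore S H Φ G₁ c ε₁) : ¬ BadFactor P.σ G₁ :=
  fun ⟨_, h1, h2, h3, x, hx, hx'⟩ => hx' (h.isSc hS hc h1 h2 h3 x hx)

theorem adjG_kron {σ : F →+* F} (hσ : ∀ a, σ (σ a) = a) {G₁ : Matrix κ κ F} {G₂ : Matrix μ μ F} (h1 : G₁.det ≠ 0)
    (h2 : G₂.det ≠ 0) (X : Matrix κ κ F) (Y : Matrix μ μ F) :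
    adjG σ (G₁ ⊗ₖ G₂) (X ⊗ₖ Y) = adjG σ G₁ X ⊗ₖ adjG σ G₂ Y := by
  rw [adjG_eq_iff hσ (by simp [Matrix.det_kronecker, h1, h2]), kron_transpose, kron_map, ← Matrix.mul_kronecker_mul,
    ← Matrix.mul_kronecker_mul, mul_adjG hσ h1, mul_adjG hσ h2]

theorem adjG_one' {σ : F →+* F} (hσ : ∀ a, σ (σ a) = a) {G : Matrix κ κ F} (h : G.det ≠ 0) : adjG σ G 1 = 1 := by
  rw [adjG_eq_iff hσ h]; simp

theorem TCore.not_bad (hS : S.Nondeg) (hc : NoComm S H) [Nonempty μ] [Nonempty κ] {Φ : (κ × μ → F) ≃ₗ[F] (ι → F)}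
    {G₁ : Matrix κ κ F} {G₂ : Matrix μ μ F} {ε₁ ε₂ : F} (h : TCore S H Φ G₁ G₂ ε₁ ε₂) : ¬ BadFactor P.σ G₁ := by
  rintro ⟨T, h1, h2, h3, x, hx, hx'⟩
  have := hc.of_set hS (T := {X | ∃ x ∈ T, X = (tr Φ).symm (kronL κ μ F x)}) ?_ ?_ ?_ _ ⟨x, hx, rfl⟩
  · rw [← isSc_tr_iff Φ, AlgEquiv.apply_symm_apply] at this
    obtain ⟨c, hc⟩ := this
    exact hx' ⟨c, algHom_injective (kronL κ μ F) (by rw [hc, map_smul, map_one])⟩
  · rintro g hg _ ⟨x, hx, rfl⟩
    obtain ⟨a, b, c, -, h4, h5, -⟩ := h.kron g hg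
    refine Algebra.subset_adjoin ⟨_, h1 a c h5 x hx, ?_⟩
    rw [AlgEquiv.eq_symm_apply, tr_cj, AlgEquiv.apply_symm_apply, cj_eq_iff, coe_trG, h4, kronL_apply, kronL_apply,
      ← Matrix.mul_kronecker_mul, ← Matrix.mul_kronecker_mul, cj_mul_self, mul_one, one_mul]
  · rintro _ ⟨x, hx, rfl⟩ _ ⟨y, hy, rfl⟩
    rw [← map_mul, ← map_mul, h2 x hx y hy, map_mul, map_mul]
  · rintro _ ⟨x, hx, rfl⟩
    refine Algebra.subset_adjoin ⟨_, h3 x hx, ?_⟩
    rw [AlgEquiv.eq_symm_apply, h.gram.tr_adj hS, AlgEquiv.apply_symm_apply, kronL_apply, kronL_apply,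
      adjG_kron P.σσ h.det₁ h.det₂, adjG_one' P.σσ h.det₂]

end general

theorem bad_symm_two (h2 : (2 : F) ≠ 0) {G : Matrix (Fin 2) (Fin 2) F} (hs : Gᵀ = G) (hd : G.det ≠ 0) :
    BadFactor (RingHom.id F) G := by
  have hu : IsUnit G := (Matrix.isUnit_iff_isUnit_det G).2 hd.isUnit
  refine ⟨{x | ∃ c : F, G * x = c • (J2 F).val}, ?_, ?_, ?_, G⁻¹ * (J2 F).val, ⟨1, ?_⟩, ?_⟩
  · rintro a m ha x ⟨c, hc⟩
    simp only [RingHom.coe_id, Matrix.map_id] at ha
    have hm : m ≠ 0 := by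
      rintro rfl
      simpa [hd, a.det_ne_zero] using congrArg Matrix.det ha
    refine ⟨m * c * a.val.det⁻¹, ?_⟩
    have h1 : IsUnit a.valᵀ := by rw [Matrix.isUnit_transpose]; exact a.isUnit
    rw [← h1.mul_right_inj, ← a.isUnit.mul_left_inj, mul_assoc, mul_assoc, cj_mul_self, ← mul_assoc, ← mul_assoc, ha,
      Matrix.smul_mul, hc, Matrix.mul_smul, Matrix.smul_mul, J2_sim, smul_smul, smul_smul,
      inv_mul_cancel_right₀ a.det_ne_zero]
  · rintro x ⟨c, hc⟩ y ⟨d, hd'⟩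
    have hx : x = c • (G⁻¹ * (J2 F).val) := by rw [← Matrix.mul_smul, ← hc, Matrix.nonsing_inv_mul_cancel_left _ _ hd.isUnit]
    have hy : y = d • (G⁻¹ * (J2 F).val) := by rw [← Matrix.mul_smul, ← hd', Matrix.nonsing_inv_mul_cancel_left _ _ hd.isUnit]
    rw [hx, hy]; simp [smul_smul, mul_comm]
  · rintro x ⟨c, hc⟩
    refine ⟨-c, ?_⟩
    have := mul_adjG (σ := RingHom.id F) (fun _ => rfl) hd x
    rw [RingHom.coe_id, Matrix.map_id] at this
    rw [this, ← hs, ← Matrix.transpose_mul, hc, Matrix.transpose_smul, J2_transpose]; simp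
  · rw [Matrix.mul_nonsing_inv_cancel_left _ _ hd.isUnit, one_smul]
  · rintro ⟨c, hc⟩
    have h1 : (J2 F).val = c • G := by
      rw [← Matrix.mul_nonsing_inv_cancel_left G (J2 F).val hd.isUnit, hc]; simp
    have h3 := J2_transpose (F := F)
    rw [h1, Matrix.transpose_smul, hs, ← h1] at h3
    have := congrFun (congrFun h3 0) 1
    simp only [J2, Matrix.of_apply, Matrix.cons_val', Matrix.cons_val_one, Matrix.cons_val_fin_one,
      Matrix.cons_val_zero, Matrix.smul_apply, smul_eq_mul] at this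
    exact h2 (by linear_combination this)

theorem bad_two_two (hq : Fintype.card F = 2) {G : Matrix (Fin 2) (Fin 2) F} (hd : G.det ≠ 0) :
    BadFactor (RingHom.id F) G := by
  have h2 := H7.two_eq_zero_of_card_two hq
  refine ⟨{x | x * x = 1 + x}, fun a _ _ x hx => ?_, fun x hx y hy => ?_, fun x hx => ?_, !![0, 1; 1, 1], ?_, ?_⟩
  · rw [Set.mem_setOf_eq, ← map_mul, hx, map_add, map_one]
  · rcases H7.order_three_card_two hq x hx with rfl | rfl <;> rcases H7.order_three_card_two hq y hy with rfl | rfl <;>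
      simp [add_mul, mul_add]
  · rw [Set.mem_setOf_eq, ← adjG_mul (fun _ => rfl) hd, hx]
    simp [adjG, add_mul, mul_add, Matrix.nonsing_inv_mul _ hd.isUnit]
  · ext i j; fin_cases i <;> fin_cases j <;> simp
  · rintro ⟨c, hc⟩
    simpa using congrFun (congrFun hc 0) 1

theorem bad_three_three (hq : Fintype.card F = 3) {G : Matrix (Fin 3) (Fin 3) F} (hs : Gᵀ = G) (hd : G.det ≠ 0) :
    BadFactor (RingHom.id F) G := by
  have h3 := H7.three_eq_zero_of_card_three hq
  have h2 : (2 : F) ≠ 0 := fun h => one_ne_zero (by linear_combination h3 - h : (1 : F) = 0)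
  have hsq : ∀ x : F, x ≠ 0 → x * x = 1 := fun x hx => by rw [← sq]; exact H7.pow_card_pred hq hx
  have key : ∀ x y z : F, x * x + y * y + z * z = 1 → x * y = 0 := fun x y z h => by
    by_contra h0
    rw [mul_eq_zero, not_or] at h0
    rw [hsq x h0.1, hsq y h0.2] at h
    by_cases hz : z = 0
    · exact one_ne_zero (by rw [hz] at h; linear_combination h : (1 : F) = 0)
    · exact h2 (by rw [hsq z hz] at h; linear_combination h)
  obtain ⟨a₀, ν, hν, h₀⟩ := exists_similar h2 (by decide) hs Matrix.transpose_one hd (by simp)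
  have hu : IsUnit a₀.valᵀ := by rw [Matrix.isUnit_transpose]; exact a₀.isUnit
  refine ⟨{x | ∃ d, x = cj a₀ (Matrix.diagonal d)}, ?_, ?_, ?_, _, ⟨![1, 0, 0], rfl⟩, ?_⟩
  · rintro a m ha _ ⟨d, rfl⟩
    simp only [RingHom.coe_id, Matrix.map_id] at ha
    set b := a₀⁻¹ * a * a₀ with hb
    have h1 : b.valᵀ * b.val = m • 1 := by
      apply smul_right_injective _ hν
      have : a * a₀ = a₀ * b := by rw [hb]; group
      have h4 : (a * a₀).valᵀ * G * (a * a₀).val = m • ν • 1 := by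
        rw [← h₀, ← Matrix.smul_mul, ← Matrix.mul_smul, ← ha]; simp only [Units.val_mul, Matrix.transpose_mul, mul_assoc]
      rw [this] at h4
      simp only
      rw [smul_comm, ← h4, ← Matrix.mul_smul, ← one_mul b.val, ← Matrix.smul_mul, ← h₀]
      simp only [Units.val_mul, Matrix.transpose_mul, mul_assoc, one_mul]
    have hm : m = 1 := by
      have h4 := congrArg Matrix.det h1
      rw [Matrix.det_mul, Matrix.det_transpose, hsq _ b.det_ne_zero, Matrix.det_smul] at h4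
      have h5 := FiniteField.pow_card m
      simp [hq] at h4 h5
      rw [← h5, h4]
    rw [hm, one_smul] at h1
    have h5 : ∀ k i j, i ≠ j → b.val i k * b.val j k = 0 := fun k i j hij => by
      have := congrFun (congrFun h1 k) k
      simp only [Matrix.mul_apply, Fin.sum_univ_three, Matrix.transpose_apply, Matrix.one_apply_eq] at this
      have h6 := key _ _ _ this
      have h7 := key (b.val 0 k) (b.val 2 k) (b.val 1 k) (by linear_combination this)
      have h8 := key (b.val 1 k) (b.val 2 k) (b.val 0 k) (by linear_combination this)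
      fin_cases i <;> fin_cases j <;> first | exact absurd rfl hij | assumption | (rw [mul_comm]; assumption)
    refine ⟨fun i => cj b (Matrix.diagonal d) i i, ?_⟩
    rw [← cj_mul, show a * a₀ = a₀ * b by rw [hb]; group, cj_mul]
    congr 1
    ext i j
    by_cases hij : i = j
    · subst hij; simp
    · rw [Matrix.diagonal_apply_ne _ hij, cj_apply, show (b⁻¹).val = b.valᵀ from
        (Units.inv_eq_of_mul_eq_one_left h1), Matrix.mul_apply]
      exact Finset.sum_eq_zero fun k _ => by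
        rw [Matrix.mul_diagonal, Matrix.transpose_apply, mul_right_comm, h5 k i j hij, zero_mul]
  · rintro _ ⟨d, rfl⟩ _ ⟨d', rfl⟩
    rw [← map_mul, ← map_mul, Matrix.diagonal_mul_diagonal, Matrix.diagonal_mul_diagonal]; simp [mul_comm]
  · rintro _ ⟨d, rfl⟩
    refine ⟨d, ?_⟩
    rw [adjG_eq_iff (fun _ => rfl) hd, RingHom.coe_id, Matrix.map_id, ← hu.mul_right_inj, ← a₀.isUnit.mul_left_inj,
      ← mul_assoc, ← Matrix.transpose_mul, mul_assoc _ (G * _), mul_assoc G, cj_mul_self, Matrix.transpose_mul,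
      mul_assoc, mul_assoc, ← mul_assoc _ G, h₀, ← mul_assoc, ← mul_assoc, h₀]
    simp
  · rw [isSc_cj_iff]
    rintro ⟨c, hc⟩
    have h4 := congrFun (congrFun hc 0) 0
    have h5 := congrFun (congrFun hc 1) 1
    simp at h4 h5
    exact one_ne_zero (h4.trans h5.symm)

end Cfsg.Agent.Asch
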