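import Cfsg.Agent.Asch.Bilin

/-!
The subgroup structure theorem, symplectic case.
-/

set_option autoImplicit false
set_option linter.unusedSectionVars false
set_option maxHeartbeats 400000

namespace Cfsg.Agent.Asch

open scoped MatrixGroups Matrix Kronecker commutatorElement
open Form Module

variable {ι : Type} [Fintype ι] [DecidableEq ι] {F : Type*} [Field F] [Fintype F]
variable {κ : Type} [Fintype κ] [DecidableEq κ] {μ : Type} [Fintype μ] [DecidableEq μ]

section general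
variable {P : FP F} {S : PQ P (ι → F)} {H : Subgroup (GL ι F)}

/-- a self-adjoint field for an alternating form -/
theorem selfAdj_alt (hσ : P.σ = RingHom.id F) (hS : S.Nondeg) (halt : ∀ v, S.B v v = 0) (hn : 3 ≤ Fintype.card ι)
    (he : Even (Fintype.card ι)) (hH : Irr H) (hI : H ≤ IsoB S) {r : ℕ} (hr : r.Prime)
    {K : Subalgebra F (Matrix ι ι F)} (hK : Geo.IsFieldSubalgebra r K) (hn' : Norms H K)
    (ha : ∀ k ∈ K, adj S k = k) : ∀ k ∈ K, ∀ v, S.B (k *ᵥ v) v = 0 := by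
  have : Nonempty ι := Fintype.card_pos_iff.1 (by omega)
  have hskew : ∀ u v, S.B u v = -S.B v u := fun u v => by
    have := halt (u + v)
    simp only [S.B_add_left, S.B_add_right, halt] at this
    linear_combination this
  have hadd : ∀ k ∈ K, ∀ u v, S.B (k *ᵥ (u + v)) (u + v) = S.B (k *ᵥ u) u + S.B (k *ᵥ v) v := fun k hk u v => by
    simp only [Matrix.mulVec_add, S.B_add_left, S.B_add_right]
    rw [B_adj hS k v u, ha k hk, hskew v]; ring
  let W : Submodule F (ι → F) :=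
    { carrier := {v | ∀ k ∈ K, S.B (k *ᵥ v) v = 0}
      add_mem' := fun {a b} h1 h2 k hk => by rw [hadd k hk, h1 k hk, h2 k hk, add_zero]
      zero_mem' := fun k _ => by simp
      smul_mem' := fun c v hv k hk => by simp [Matrix.mulVec_smul, hv k hk] }
  rcases hH W (fun g hg v hv k hk => by
    rw [← cj_cj_inv g k, cj_mulVec, mem_IsoB.1 (hI hg)]
    exact hv _ (hn' _ (H.inv_mem hg) k hk)) with h0 | h0
  swap
  · exact fun k hk v => h0.ge (Submodule.mem_top (x := v)) k hk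
  exfalso
  let φ : (ι → F) →+ Dual F K :=
    { toFun := fun v => S.lin v ∘ₗ (Matrix.mulVecBilin F F).flip v ∘ₗ K.val.toLinearMap
      map_zero' := by ext k; simp
      map_add' := fun u v => by ext k; exact hadd k k.2 u v }
  have hφ : Function.Injective φ := (injective_iff_map_eq_zero φ).2 fun v hv =>
    h0.le fun k hk => LinearMap.congr_fun hv ⟨k, hk⟩
  have : Finite (Dual F K) := Module.finite_of_finite F
  have h1 := Nat.card_le_card_of_injective φ hφ
  rw [Module.natCard_eq_pow_finrank (K := F), Module.natCard_eq_pow_finrank (K := F) (V := Dual F K),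
    Subspace.dual_finrank_eq,
    hK.finrank_eq, finrank_pi, Nat.pow_le_pow_iff_right Finite.one_lt_card] at h1
  have h2 := le_antisymm h1 (Nat.le_of_dvd (by omega) (dvd_card_of_field hK))
  rw [h2] at he hn
  have := hr.even_iff.1 he
  omega

theorem exists_omega (hσ : P.σ = RingHom.id F) (h2 : (2 : F) = 0) (hS : S.Nondeg) (hI : H ≤ IsoB S)
    {K : Subalgebra F (Matrix ι ι F)} (hn : Norms H K) (ha : AdjC S (K : Set (Matrix ι ι F)))
    (h1 : ∃ k ∈ K, adj S k ≠ k) (h3 : ∀ k ∈ K, adj S k = k → IsSc k) :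
    ∃ ω ∈ K, ω + adj S ω = 1 ∧ ∀ g ∈ H, IsSc (cj g ω - ω) := by
  have hneg : ∀ X : Matrix ι ι F, -X = X := fun X => by
    rw [neg_eq_iff_add_eq_zero, ← two_smul F, h2, zero_smul]
  obtain ⟨k, hk, hk'⟩ := h1
  obtain ⟨c, hc⟩ := h3 (k + adj S k) (add_mem hk (ha k hk)) (by rw [adj_add hS, adj_adj hS, add_comm])
  have hc0 : c ≠ 0 := by
    rintro rfl
    rw [zero_smul, add_eq_zero_iff_neg_eq, hneg] at hc
    exact hk' hc.symm
  have hω : c⁻¹ • k + adj S (c⁻¹ • k) = 1 := by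
    rw [adj_smul hS, hσ, RingHom.id_apply, ← smul_add, hc, smul_smul, inv_mul_cancel₀ hc0, one_smul]
  have hm := K.smul_mem hk c⁻¹
  refine ⟨_, hm, hω, fun g hg => h3 _ (sub_mem (hn g hg _ hm) hm) ?_⟩
  rw [adj_sub hS, adj_cj hS (IsoB_le_sim (hI hg)), eq_sub_of_add_eq' hω, map_sub, map_one, ← hneg (cj g _ - _)]
  abel

theorem qFix_of_pair (hσ : P.σ = RingHom.id F) (h2 : (2 : F) = 0) (hS : S.Nondeg) (hI : H ≤ IsoB S)
    (halt : ∀ v, S.B v v = 0) {e : Matrix ι ι F} (he : IdemFam H ![e, 1 - e]) (ha : adj S e = 1 - e) :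
    QFix S H fun v => S.B (e *ᵥ v) v := by
  refine qFix_of_omega hσ h2 hS hI halt (by simp [ha]) fun g hg => ?_
  obtain ⟨σ, hσ⟩ := he.perm g hg
  have h0 : cj g e = ![e, 1 - e] (σ 0) := hσ 0
  rw [h0]
  generalize σ 0 = i
  fin_cases i
  · exact ⟨0, by simp⟩
  · refine ⟨1, ?_⟩
    simp only [Fin.mk_one, Matrix.cons_val_one, Matrix.cons_val_zero, one_smul]
    rw [sub_sub, ← two_smul F, h2]; simp

/-- an orthogonal factor of dimension two gives a commutative invariant algebra -/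
theorem TCore.not_symm_two (hσ : P.σ = RingHom.id F) (h2 : (2 : F) ≠ 0) (hS : S.Nondeg) (hc : NoComm S H)
    [Nonempty κ] {Φ : (κ × Fin 2 → F) ≃ₗ[F] (ι → F)} {G₁ : Matrix κ κ F} {G₂ : Matrix (Fin 2) (Fin 2) F} {ε₁ ε₂ : F}
    (h : TCore S H Φ G₁ G₂ ε₁ ε₂) (hs : G₂ᵀ = G₂) : False := by
  let g : GL (Fin 2) F := Matrix.GeneralLinearGroup.mkOfDetNeZero G₂ h.det₂
  have hg : g.val = G₂ := rfl
  have := hc.isSc_of_eigen hS (X := (tr Φ).symm (1 ⊗ₖ ((g⁻¹).val * (J2 F).val))) (fun x hx => ?_) ⟨-1, ?_⟩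
  · rw [← isSc_tr_iff Φ, AlgEquiv.apply_symm_apply] at this
    obtain ⟨c, hc⟩ := this
    have h1 : (g⁻¹).val * (J2 F).val = c • 1 := algHom_injective (kronR κ (Fin 2) F) (by
      rw [map_smul, map_one]; exact hc)
    rw [Units.inv_mul_eq_iff_eq_mul, hg, Matrix.mul_smul, mul_one] at h1
    have h3 := J2_transpose (F := F)
    rw [h1, Matrix.transpose_smul, hs, ← h1] at h3
    have := congrFun (congrFun h3 0) 1
    simp only [J2, Matrix.of_apply, Matrix.cons_val', Matrix.cons_val_one, Matrix.cons_val_fin_one,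
      Matrix.cons_val_zero, Matrix.smul_apply, smul_eq_mul] at this
    exact h2 (by linear_combination this)
  · obtain ⟨a, b, c, hc, h1, -, h3⟩ := h.kron x⁻¹ (H.inv_mem hx)
    simp only [hσ, RingHom.coe_id, Matrix.map_id] at h3
    refine ⟨c * b.val.det, ?_⟩
    rw [← map_smul, AlgEquiv.eq_symm_apply, tr_cj, AlgEquiv.apply_symm_apply, ← inv_inv (trG Φ x), ← map_inv,
      eq_comm, ← cj_inv_cj (trG Φ x⁻¹) (_ • _), EmbeddingLike.apply_eq_iff_eq, cj_eq_iff, coe_trG, h1,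
      ← Matrix.kronecker_smul, ← Matrix.mul_kronecker_mul, ← Matrix.mul_kronecker_mul, mul_one, one_mul]
    congr 1
    rw [mul_assoc, eq_comm, Units.inv_mul_eq_iff_eq_mul, hg]
    have hb : IsUnit b.valᵀ := by rw [Matrix.isUnit_transpose]; exact b.isUnit
    rw [← hb.mul_right_inj, ← mul_assoc, J2_sim, ← mul_assoc, ← mul_assoc, h3, Matrix.smul_mul, Matrix.mul_smul,
      ← hg, Units.mul_inv_cancel_left, smul_smul, inv_mul_cancel_left₀ hc]
  · rw [← map_smul, AlgEquiv.eq_symm_apply, h.gram.tr_adj hS, AlgEquiv.apply_symm_apply,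
      adjG_eq_iff P.σσ (h.gram.det hS), hσ, RingHom.coe_id, Matrix.map_id, kron_transpose, ← Matrix.kronecker_smul,
      ← Matrix.mul_kronecker_mul, ← Matrix.mul_kronecker_mul, Matrix.transpose_one, one_mul, mul_one,
      Matrix.transpose_mul, J2_transpose, Matrix.mul_smul, ← hg, Units.mul_inv_cancel_left, mul_assoc]
    congr 1
    conv_lhs => rw [hg, ← hs, ← hg, ← Matrix.transpose_mul]
    simp

end general

/-- the alternatives in the symplectic case -/
inductive SpCase (S : PQ (FP.symp F) (ι → F)) (H : Subgroup (GL ι F)) : Prop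
  | c1s (W : Submodule F (ι → F)) : W ≠ ⊥ → Geo.IsTotallySingularFor S.B W → H ≤ Geo.subspaceStabilizer W →
      SpCase S H
  | c1n (W : Submodule F (ι → F)) : W ≠ ⊥ → Geo.IsNondegenerateOn S.B W → 2 * finrank F W < Fintype.card ι →
      H ≤ Geo.subspaceStabilizer W → SpCase S H
  | c2n (t k : ℕ) (D : Fin t → Submodule F (ι → F)) : Geo.IsNondegenerateMDecomposition S.B k D →
      H ≤ Geo.decompositionStabilizer D → SpCase S H
  | c2s (k : ℕ) (D : Fin 2 → Submodule F (ι → F)) : Odd (Fintype.card F) → Geo.IsMDecomposition k D →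
      (∀ i, Geo.IsTotallySingularFor S.B (D i)) → H ≤ Geo.decompositionStabilizer D → SpCase S H
  | c3s (r : ℕ) (K : Subalgebra F (Matrix ι ι F)) : r.Prime → Geo.IsFieldSubalgebra r K →
      Geo.IsSelfAdjointFor S.B K → (∀ k ∈ K, ∀ v, S.B (k *ᵥ v) v = 0) → H ≤ Geo.subalgebraNormalizer K → SpCase S H
  | c3u (K : Subalgebra F (Matrix ι ι F)) : Odd (Fintype.card F) → Geo.IsFieldSubalgebra 2 K →
      Geo.IsAdjointClosedFor S.B K → ¬ Geo.IsSelfAdjointFor S.B K → H ≤ Geo.subalgebraNormalizer K → SpCase S H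
  | c4 (n₁ n₂ : ℕ) (e : ι ≃ Fin n₁ × Fin n₂) (P : GL ι F) (f₁ : (Fin n₁ → F) → (Fin n₁ → F) → F)
      (f₂ : (Fin n₂ → F) → (Fin n₂ → F) → F) : Odd (Fintype.card F) → 3 ≤ n₂ → Geo.IsSymplecticForm f₁ →
      Geo.IsSymmetricForm f₂ → Geo.IsTensorFormStructure id S.B f₁ f₂ e P →
      H ≤ Geo.tensorProductSubgroup n₁ n₂ e P → SpCase S H
  | c5 (F₀ : Subfield F) (r : ℕ) (P : GL ι F) (ζ : F) : r.Prime → Fintype.card F = Nat.card F₀ ^ r → ζ ≠ 0 →
      Geo.IsFormRationalStructure S.B F₀ ζ P → H ≤ Geo.subfieldSubgroup F₀ P → SpCase S H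
  | c6 (R : Subgroup (GL ι F)) (k : ℕ) : Geo.IsSymplecticTypeGroup 2 R →
      Geo.ActsAbsolutelyIrreducibly (Geo.matrixSet R) → R ≤ IsoB S → (Fintype.card F).Prime →
      Odd (Fintype.card F) → Nat.card R = 2 ^ (1 + 2 * k) → Nat.card (Subgroup.center R) = 2 →
      Geo.IsOfMinusType k R → Fintype.card ι = 2 ^ k → H ≤ Geo.subgroupNormalizer R → SpCase S H
  | c7 (k t : ℕ) (e : ι ≃ (Fin t → Fin k)) (P : GL ι F) (f₁ : (Fin k → F) → (Fin k → F) → F) :
      Odd (Fintype.card F) → Odd t → 3 ≤ t → ¬ (Fintype.card F = 3 ∧ k = 2) → Geo.IsSymplecticForm f₁ →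
      Geo.IsTensorPowerFormStructure id S.B f₁ e P → H ≤ Geo.tensorWreathSubgroup k t e P → SpCase S H
  | c8 (Q : (ι → F) → F) : ¬ Odd (Fintype.card F) → Geo.IsNondegenerateQuadraticForm Q →
      (∀ u v, QuadraticMap.polar Q u v = S.B u v) → H ≤ isometryGroup F Q → SpCase S H
  | res : Geo.InSymplecticResidualClass H → SpCase S H

variable {S : PQ (FP.symp F) (ι → F)} {H : Subgroup (GL ι F)}

theorem SpCase.of_qFix (hS : S.Nondeg) (h2 : (2 : F) = 0) {Q : (ι → F) → F} (h : QFix S H Q) : SpCase S H :=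
  .c8 Q (by simp [odd_card_iff, h2]) (h.nondeg hS) h.polar fun g hg => mem_isometryGroup'.2 (h.fix g hg)

theorem SpCase.of_group [Nonempty ι] (hS : S.Nondeg) {R : Subgroup (GL ι F)}
    (hR : Full (Geo.matrixSet R)) (hn : NormsG H R) (hI : R ≤ IsoB S) {F₀ : Subfield F} (hF : F₀ ≠ ⊤)
    (htr : ∀ s ∈ Geo.matrixSet R, s.trace ∈ F₀) : SpCase S H := by
  obtain ⟨F₁, r, P', G, ζ, -, h⟩ := exists_subCore_of_group hS hR hn hI hF htr
  exact .c5 F₁ r P' ζ h.prime h.card h.ne h.rational h.le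

theorem SpCase.of_tcore (hS : S.Nondeg) (h2 : (2 : F) ≠ 0) (hc : NoComm S H) {k l : ℕ} (hk : 2 ≤ k) (hl : 2 ≤ l)
    {Φ : (Fin k × Fin l → F) ≃ₗ[F] (ι → F)} {G₁ : Matrix (Fin k) (Fin k) F} {G₂ : Matrix (Fin l) (Fin l) F}
    (h : TCore S H Φ G₁ G₂ (-1) 1) : SpCase S H := by
  have : Nonempty (Fin k) := ⟨⟨0, by omega⟩⟩
  have h1 : G₁ᵀ = -G₁ := by simpa [FP.symp] using h.herm₁
  have h3 : G₂ᵀ = G₂ := by simpa [FP.symp] using h.herm₂
  rcases hl.lt_or_eq with hl | rfl
  · obtain ⟨e, P', rfl⟩ := exists_fr' Φ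
    have := h.tensorForm one_ne_zero one_ne_zero
    rw [one_smul, one_smul] at this
    exact .c4 k l e P' _ _ (odd_card_iff.2 h2) hl (isSymplecticForm_ofG h1 (diag_eq_zero_of_skew h2 h1) h.det₁)
      (isSymmetricForm_ofG h3 h.det₂) this h.le_tensor
  · exact (h.not_symm_two rfl h2 hS hc h3).elim

theorem spCase (hS : S.Nondeg) (hn : 3 ≤ Fintype.card ι) (hI : H ≤ IsoB S) : SpCase S H := by
  have : Nonempty ι := Fintype.card_pos_iff.1 (by omega)
  have hsymp : Geo.IsSymplecticForm S.B :=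
    ⟨(sesq_B S).bilinear, fun u v => S.symp_B_swap v u, S.symp_B_self, nondeg_B hS⟩
  by_cases hH : Irr H
  swap
  · obtain ⟨W, h1, h2, h3, h4⟩ := exists_min_invariant hH
    rcases nondeg_or_ti hI h3 h4 with h5 | h5
    · rcases nondeg_small_or hS hI h1 h2 h3 h5 with ⟨W, h6, h7, h8, h9⟩ | ⟨k, h6, h7⟩
      · exact .c1n W h6 h7 h8 h9
      · exact .c2n 2 k _ h6 h7
    · exact .c1s W h1 h5 (le_subspaceStabilizer h3)
  by_cases hc : NoComm S H
  swap
  · rw [NoComm] at hc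
    push Not at hc
    obtain ⟨C, h1, h2, h3, h4⟩ := hc
    rcases comm_exit hS hH hI h1 h2 h3 h4 with ⟨t, e, he, he'⟩ | ⟨e, he, he'⟩ | ⟨r, K, hr, hK, hK1, hK2⟩
    · obtain ⟨m, hm⟩ := he.nondeg hS hH he'
      exact .c2n t m _ hm he.le_stab
    · by_cases h2 : (2 : F) = 0
      · exact .of_qFix hS h2 (qFix_of_pair rfl h2 hS hI S.symp_B_self he he')
      · obtain ⟨m, hm⟩ := he.isMDecomposition hH
        exact .c2s m _ (odd_card_iff.2 h2) hm (ti_of_adj hS (he.idem 0) he') he.le_stab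
    · rcases selfAdj_or_two hS (fun _ => rfl) hr hK hK2 with h5 | ⟨rfl, h5, h6⟩
      · exact .c3s r K hr hK ((selfAdj_iff hS).2 h5) (selfAdj_alt rfl hS S.symp_B_self hn
          (even_card_of_symplectic hsymp) hH hI hr hK hK1 h5) hK1.le_subalgebraNormalizer
      · by_cases h2 : (2 : F) = 0
        · obtain ⟨ω, -, h7, h8⟩ := exists_omega rfl h2 hS hI hK1 hK2 h5 h6
          exact .of_qFix hS h2 (qFix_of_omega rfl h2 hS hI S.symp_B_self h7 h8)
        · refine .c3u K (odd_card_iff.2 h2) hK (hK2.geo hS) (fun h0 => ?_) hK1.le_subalgebraNormalizer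
          obtain ⟨k, hk, hk'⟩ := h5
          exact hk' ((selfAdj_iff hS).1 h0 k hk)
  rcases prim_or_tcore hS hH hI hc with hP | ⟨k, l, hk, hl, Φ, G₁, G₂, ε₁, ε₂, h⟩
  swap
  · by_cases h2 : (2 : F) = 0
    · exact .of_qFix hS h2 (h.qFix rfl h2 hH hk hl)
    have : Nonempty (Fin k) := ⟨⟨0, by omega⟩⟩
    have h3 := h.mul
    rcases mul_self_eq_one_iff.1 (herm_scalar (fun _ => rfl) (ne_zero_of_det h.det₁) h.herm₁) with rfl | rfl
    · obtain rfl : ε₂ = -1 := by simpa using h3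
      exact .of_tcore hS h2 hc hl hk h.swap
    · obtain rfl : ε₂ = 1 := by simpa using h3
      exact .of_tcore hS h2 hc hk hl h
  rcases exists_core (hH.not_le_scalars (by omega)) with ⟨M, r, hM⟩ | ⟨P, hQ⟩
  · obtain ⟨h2, m, hR, hz⟩ := hM.es_bilin rfl hS hI le_rfl hP
    rcases bot_ne_top_or (F := F) with hp | hp
    · have hc := hR.card_center_of hz (isPrimitiveRoot_neg_one h2) two_ne_zero
      exact .c6 _ m hR.symp hR.full.absIrr inf_le_right hp (odd_card_iff.2 h2) (by rw [hR.card, hc, pow_add, pow_one])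
        hc (hR.minusType hS h2 inf_le_right) hR.card_ι hR.norms.le_normalizer
    · refine .of_group hS hR.full hR.norms inf_le_right hp (hR.trace_mem fun c hc => ?_)
      rcases sq_eq_one_iff_of_ne_zero' (a := (c : F)) (by simpa using congrArg Units.val ((hz c).1 hc)) with h | h
      · rw [h]; exact one_mem _
      · rw [h]; exact neg_mem (one_mem _)
  by_cases hnP : NormsG H P
  · have hfull := (hP P (hQ.le.trans le_sup_left) hnP).resolve_left hQ.not_le
    have hPI := hQ.le.trans hI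
    by_contra hcon
    refine hcon (.res ⟨P, hQ.residual hnP hfull fun F₀ hF htr => hcon (.of_group hS hfull hnP hPI hF ?_), ?_, ?_⟩)
    · rintro _ ⟨x, hx, rfl⟩; exact htr x hx
    · rintro ⟨Q, hQ', hfix⟩
      obtain ⟨c, hc⟩ := schur hfull (σ := RingHom.id F) (fun _ => rfl) (sesq_B S) (nondeg_B hS)
        (sesq_of_bilinear hQ'.polar_bilinear) (fixesForm_of_le hPI) (fixesForm_polar hfix)
      obtain ⟨i⟩ := ‹Nonempty ι›
      obtain ⟨x, hx⟩ := (hQ'.nondegenerate (Pi.single i 1) (by simp)).1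
      by_cases h2 : (2 : F) = 0
      · have hc0 : c ≠ 0 := by rintro rfl; simp [hc] at hx
        refine hcon (.of_qFix hS h2 (QFix.of_norms h2 (by omega) hI hfull.irr hnP (Q := fun v => c⁻¹ * Q v)
          ⟨fun a v => by rw [hQ'.smul]; ring, fun u v => ?_, fun g hg v => by rw [hfix _ ⟨g, hg, rfl⟩]⟩))
        rw [← inv_mul_cancel_left₀ hc0 (S.B u v), ← hc]
        simp only [QuadraticMap.polar]; ring
      · apply hx
        have h3 := QuadraticMap.polar_comm Q x (Pi.single i 1)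
        rw [hc, hc, S.symp_B_swap x] at h3
        rw [hc]
        exact (mul_eq_zero.1 (show 2 * (c * S.B x (Pi.single i 1)) = 0 by linear_combination h3)).resolve_left h2
    · rintro ⟨σ, f, hf, hfix⟩
      exact hcon (.of_group hS hfull hnP hPI (fixSub_ne_top _ (unit_ne hf)) (trace_mem_fixSub (unit_invol hf)
        (sesq_B S) (nondeg_B hS) (sesq_of_unitary hf) hf.nondegenerate (fixesForm_of_le hPI) hfix))
  · obtain ⟨k, t, Φ, P₁, hW⟩ := hQ.exists_wcore hP hnP
    obtain ⟨G₁, c, ε₁, h, hfix⟩ := hW.exists_pcore hS hI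
    have hk := h.two_le_k
    have ht := h.two_le_t
    by_cases h2 : (2 : F) = 0
    · exact .of_qFix hS h2 (hW.qFix rfl h2 hI (by omega) h hfix ⟨0, by omega⟩)
    have : Nonempty (Fin k) := ⟨⟨0, by omega⟩⟩
    have h3 : ε₁ ^ t = -1 := mul_left_cancel₀ h.ne (by simpa using h.eps)
    have h4 : (1 : F) ≠ -1 := fun h => h2 (by linear_combination h)
    rcases mul_self_eq_one_iff.1 (herm_scalar (fun _ => rfl) (ne_zero_of_det h.det) h.herm) with rfl | rfl
    · exact absurd (by simpa using h3) h4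
    have h5 : Odd t := by
      by_contra h5
      rw [(Nat.not_odd_iff_even.1 h5).neg_one_pow] at h3
      exact h4 h3
    have h1 : G₁ᵀ = -G₁ := by simpa [FP.symp] using h.herm
    obtain ⟨e, P', rfl⟩ := exists_fr' Φ
    have := h.powerForm one_ne_zero
    rw [one_smul] at this
    refine .c7 k t e P' _ (odd_card_iff.2 h2) h5 (by obtain ⟨j, rfl⟩ := h5; omega) ?_
      (isSymplecticForm_ofG h1 (diag_eq_zero_of_skew h2 h1) h.det) this h.le_wreath
    rintro ⟨hq, rfl⟩
    exact not_perfect_two_three hq hW.perfect hW.full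

end Cfsg.Agent.Asch
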